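/-
MetacyclicP: groups with abelian Sylow subgroups and an odd order subgroup of 2-power index,
general lemmas.
-/
import Mathlib
import Cfsg.Agent.Lib.CoprimeAction.Abelian
import Cfsg.Agent.Lib.PGroups.SylowBasics

set_option autoImplicit false
set_option linter.style.haveILetI false

open scoped commutatorElement

namespace CfsgLib.MetacyclicP.TwoPowerIndex

/-- All subgroups of prime power order are abelian. -/
def AbelianP (G : Type*) [Group G] : Prop :=
  ∀ p : ℕ, p.Prime → ∀ P : Subgroup G, IsPGroup p P → ∀ x ∈ P, ∀ y ∈ P, x * y = y * x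

variable {G : Type*} [Group G]

theorem AbelianP.isMulCommutative (hG : AbelianP G) {p : ℕ} (hp : p.Prime) {P : Subgroup G}
    (hP : IsPGroup p P) : IsMulCommutative P :=
  ⟨⟨fun a b => Subtype.ext (hG p hp P hP a a.2 b b.2)⟩⟩

theorem abelianP_of_sylow
    (hA : ∀ (p : ℕ) [Fact p.Prime] (P : Sylow p G), IsMulCommutative (P : Subgroup G)) :
    AbelianP G := by
  intro p hp P hP x hx y hy
  have := Fact.mk hp
  obtain ⟨S, hS⟩ := hP.exists_le_sylow
  exact congrArg Subtype.val
    ((hA p S).is_comm.comm ⟨x, hS hx⟩ ⟨y, hS hy⟩)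

theorem AbelianP.subgroup (hG : AbelianP G) (K : Subgroup G) : AbelianP K := by
  intro p hp P hP x hx y hy
  exact Subtype.ext (hG p hp _ (hP.map K.subtype) x ⟨x, hx, rfl⟩ y ⟨y, hy, rfl⟩)

variable [Finite G]

theorem AbelianP.quotient (hG : AbelianP G) (N : Subgroup G) [N.Normal] : AbelianP (G ⧸ N) := by
  intro p hp P hP x hx y hy
  have := Fact.mk hp
  obtain ⟨S, hS⟩ := hP.exists_le_sylow
  obtain ⟨S₀, rfl⟩ := Sylow.mapSurjective_surjective (QuotientGroup.mk'_surjective N) p S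
  obtain ⟨a, ha, rfl⟩ := hS hx
  obtain ⟨b, hb, rfl⟩ := hS hy
  rw [← map_mul, ← map_mul, hG p hp S₀ S₀.2 a ha b hb]

omit [Finite G] in
/-- An element of 2-power order and of odd exponent is trivial. -/
theorem eq_one_of_two_odd {x : G} {k n : ℕ} (h2 : x ^ 2 ^ k = 1) (hn : Odd n) (hxn : x ^ n = 1) :
    x = 1 := by
  refine orderOf_eq_one_iff.1 (Nat.eq_one_of_dvd_coprimes ?_ (orderOf_dvd_of_pow_eq_one h2)
    (orderOf_dvd_of_pow_eq_one hxn))
  exact (Nat.coprime_two_left.2 hn).pow_left k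

omit [Finite G] in
theorem pow_card_eq_one_of_mem {K : Subgroup G} {x : G} (hx : x ∈ K) : x ^ Nat.card K = 1 := by
  exact (SubmonoidClass.coe_pow (⟨x, hx⟩ : K) _).symm.trans
    (congrArg Subtype.val (pow_card_eq_one' (x := (⟨x, hx⟩ : K))))

omit [Finite G] in
theorem exists_two_pow_of_mem {K : Subgroup G} (hK : IsPGroup 2 K) {x : G} (hx : x ∈ K) :
    ∃ k : ℕ, x ^ 2 ^ k = 1 := by
  obtain ⟨k, hk⟩ := hK ⟨x, hx⟩
  exact ⟨k, by simpa using congrArg Subtype.val hk⟩

/-- Two involutions are conjugate or centralise a common involution. -/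
theorem conj_or_common {u v : G} (hu : u * u = 1) (hu1 : u ≠ 1) (hv : v * v = 1) (_hv1 : v ≠ 1) :
    (∃ g : G, g * u * g⁻¹ = v) ∨ ∃ w : G, w * w = 1 ∧ w ≠ 1 ∧ Commute w u ∧ Commute w v := by
  set d := u * v with hd
  have hvd : v = u * d := by rw [hd, ← mul_assoc, hu, one_mul]
  have hinv : u * d * u⁻¹ = d⁻¹ := by
    rw [hd, inv_eq_of_mul_eq_one_right hu, ← mul_assoc u u v, hu, one_mul, mul_inv_rev,
      inv_eq_of_mul_eq_one_right hu, inv_eq_of_mul_eq_one_right hv]
  have hpow : ∀ j : ℕ, u * d ^ j * u⁻¹ = (d ^ j)⁻¹ := fun j => by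
    rw [← conj_pow, hinv, inv_pow]
  have hui : u⁻¹ = u := inv_eq_of_mul_eq_one_right hu
  have hn0 : 0 < orderOf d := orderOf_pos d
  have hn := pow_orderOf_eq_one d
  rcases Nat.even_or_odd' (orderOf d) with ⟨k, hk | hk⟩
  · right
    refine ⟨d ^ k, ?_, ?_, ?_, ?_⟩
    · rw [← pow_add, show k + k = orderOf d by omega, hn]
    · intro h
      have := orderOf_dvd_of_pow_eq_one h
      have := Nat.le_of_dvd (by omega) this
      omega
    · have h2 : (d ^ k)⁻¹ = d ^ k :=
        inv_eq_of_mul_eq_one_right (by rw [← pow_add, show k + k = orderOf d by omega, hn])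
      have h3 := hpow k
      rw [h2, hui] at h3
      show d ^ k * u = u * d ^ k
      conv_lhs => rw [← h3]
      rw [mul_assoc, hu, mul_one]
    · rw [hvd]
      have h2 : (d ^ k)⁻¹ = d ^ k :=
        inv_eq_of_mul_eq_one_right (by rw [← pow_add, show k + k = orderOf d by omega, hn])
      have h3 := hpow k
      rw [h2, hui] at h3
      have hc : d ^ k * u = u * d ^ k := by
        conv_lhs => rw [← h3]
        rw [mul_assoc, hu, mul_one]
      show d ^ k * (u * d) = u * d * d ^ k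
      rw [← mul_assoc, hc, mul_assoc, mul_assoc, (Commute.self_pow d k).eq]
  · left
    refine ⟨d ^ k, ?_⟩
    have h3 := hpow k
    rw [hui] at h3
    have h4 : d ^ k * u = u * (d ^ k)⁻¹ := by
      rw [← h3, ← mul_assoc, ← mul_assoc, hu, one_mul]
    rw [hvd, h4, mul_assoc, mul_right_inj, ← mul_inv_rev, ← pow_add, inv_eq_iff_mul_eq_one,
      ← pow_succ, show k + k + 1 = orderOf d by omega, hn]

omit [Finite G] in
/-- If `K` is the set of elements with the same value of `f` as cosets of `L`, the values are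
counted by the index. -/
theorem card_eq_relIndex {K L : Subgroup G} {α : Type*} (f : G → α) (S : Set α)
    (hf : ∀ a ∈ K, ∀ b ∈ K, (f a = f b ↔ a⁻¹ * b ∈ L))
    (hS : ∀ u, u ∈ S ↔ ∃ k ∈ K, f k = u) : Nat.card S = L.relIndex K := by
  let Φ : K ⧸ L.subgroupOf K → S := Quotient.lift (fun k : K => (⟨f k, (hS _).2 ⟨k, k.2, rfl⟩⟩ : S))
    (fun a b hab => Subtype.ext ((hf a a.2 b b.2).2 (by
      simpa [Subgroup.mem_subgroupOf] using QuotientGroup.leftRel_apply.1 hab)))
  refine (Nat.card_eq_of_bijective Φ ⟨?_, ?_⟩).symm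
  · intro p q
    induction p using Quotient.inductionOn with
    | h a =>
      induction q using Quotient.inductionOn with
      | h b =>
        intro hab
        apply Quotient.sound
        refine QuotientGroup.leftRel_apply.2 (Subgroup.mem_subgroupOf.2 ?_)
        simpa using (hf a a.2 b b.2).1 (congrArg Subtype.val hab)
  · rintro ⟨u, hu⟩
    obtain ⟨k, hk, rfl⟩ := (hS u).1 hu
    exact ⟨Quotient.mk _ (⟨k, hk⟩ : K), rfl⟩

omit [Finite G] in
/-- The order of a group acting freely divides the number of points. -/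
theorem card_dvd_of_free {M α : Type*} [Group M] [MulAction M α] [Finite M] [Finite α]
    (h : ∀ (m : M) (a : α), m • a = a → m = 1) : Nat.card M ∣ Nat.card α := by
  classical
  letI := Fintype.ofFinite (Quotient (MulAction.orbitRel M α))
  rw [Nat.card_congr (MulAction.selfEquivSigmaOrbitsQuotientStabilizer M α), Nat.card_sigma]
  refine Finset.dvd_sum fun ω _ => ?_
  have hs : MulAction.stabilizer M ω.out = ⊥ :=
    (Subgroup.eq_bot_iff_forall _).2 fun m hm => h m _ hm
  rw [← Subgroup.index_eq_card, hs, Subgroup.index_bot]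

omit [Finite G] in
/-- A set with an involution has the parity of its fixed point set. -/
theorem card_filter_fixed_mod_two {ι : Type*} [DecidableEq ι] (s : Finset ι) (σ : ι → ι)
    (hmem : ∀ a ∈ s, σ a ∈ s) (hinv : ∀ a ∈ s, σ (σ a) = a) :
    (Odd s.card ↔ Odd (s.filter fun a => σ a = a).card) := by
  have h : ((s.filter fun a => ¬ σ a = a).card : ZMod 2) = 0 := by
    rw [Finset.card_eq_sum_ones, Nat.cast_sum]
    refine Finset.sum_involution (fun a _ => σ a) (fun a _ => by decide) (fun a ha _ => ?_)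
      (fun a ha => ?_) (fun a ha => hinv a (Finset.mem_filter.1 ha).1)
    · exact (Finset.mem_filter.1 ha).2
    · obtain ⟨ha, hne⟩ := Finset.mem_filter.1 ha
      refine Finset.mem_filter.2 ⟨hmem a ha, ?_⟩
      rw [hinv a ha]
      exact fun h => hne h.symm
  obtain ⟨c, hc⟩ := (ZMod.natCast_eq_zero_iff _ _).1 h
  rw [← Finset.card_filter_add_card_filter_not (s := s) (fun a => σ a = a), hc,
    Nat.odd_add, iff_true_right (even_two_mul c)]

/-- An abelian group acting coprimely on an abelian group has a point with trivial stabiliser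
modulo the kernel. -/
theorem exists_centralizer_le {B F : Subgroup G} [IsMulCommutative B] [IsMulCommutative F]
    (hBF : B ≤ Subgroup.normalizer (F : Set G)) (hcop : (Nat.card B).Coprime (Nat.card F)) :
    ∃ v ∈ F, B ⊓ Subgroup.centralizer {v} ≤ Subgroup.centralizer (F : Set G) := by
  obtain ⟨⟨v, hv⟩, hmin⟩ := Finite.exists_min
    (fun v : F => Nat.card ↥(B ⊓ Subgroup.centralizer {(v : G)}))
  set K := B ⊓ Subgroup.centralizer {v} with hK
  refine ⟨v, hv, ?_⟩
  by_contra hne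
  have hKF : K ≤ Subgroup.normalizer (F : Set G) := inf_le_left.trans hBF
  have hcopK : (Nat.card K).Coprime (Nat.card F) :=
    hcop.coprime_dvd_left (Subgroup.card_dvd_of_le inf_le_left)
  set C := F ⊓ Subgroup.centralizer (K : Set G) with hC
  have hsup : C ⊔ ⁅F, K⁆ = F := CfsgLib.CoprimeAction.sup_commutator_eq hKF hcopK
  have hinf : C ⊓ ⁅F, K⁆ = ⊥ := CfsgLib.CoprimeAction.inf_commutator_eq_bot hKF hcopK
  obtain ⟨w, hw, hw1⟩ : ∃ w ∈ ⁅F, K⁆, w ≠ 1 := by
    by_contra hcon
    push Not at hcon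
    have hbot : ⁅F, K⁆ = ⊥ := (Subgroup.eq_bot_iff_forall _).2 hcon
    rw [hbot, sup_bot_eq] at hsup
    exact hne (Subgroup.le_centralizer_iff.1 (hsup.ge.trans inf_le_right))
  have hwF : w ∈ F := hsup.le (Subgroup.mem_sup_right hw)
  have hvC : v ∈ C :=
    ⟨hv, Subgroup.mem_centralizer_iff.2 fun k hk => Subgroup.mem_centralizer_singleton_iff.1 hk.2⟩
  have hBK : ∀ b ∈ B, ∀ k ∈ K, b * k = k * b := fun b hb k hk =>
    congrArg Subtype.val (mul_comm' (⟨b, hb⟩ : B) ⟨k, hk.1⟩)
  have hnC : ∀ b ∈ B, ∀ c ∈ C, b * c * b⁻¹ ∈ C := fun b hb c hc =>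
    ⟨(Subgroup.mem_normalizer_iff.1 (hBF hb) c).1 hc.1, Subgroup.mem_centralizer_iff.2 fun k hk => by
      have h1 : k * c = c * k := Subgroup.mem_centralizer_iff.1 hc.2 k hk
      have h2 : b⁻¹ * k = k * b⁻¹ := hBK _ (inv_mem hb) k hk
      calc k * (b * c * b⁻¹) = k * b * c * b⁻¹ := by group
        _ = b * k * c * b⁻¹ := by rw [hBK b hb k hk]
        _ = b * (k * c) * b⁻¹ := by group
        _ = b * c * (k * b⁻¹) := by rw [h1]; group
        _ = b * c * b⁻¹ * k := by rw [← h2]; group⟩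
  have hnI : ∀ b ∈ B, ∀ z ∈ ⁅F, K⁆, b * z * b⁻¹ ∈ ⁅F, K⁆ := fun b hb z hz => by
    have hmap : (⁅F, K⁆).map (MulAut.conj b).toMonoidHom ≤ ⁅F, K⁆ := by
      rw [Subgroup.map_commutator]
      refine Subgroup.commutator_mono ?_ ?_
      · rintro _ ⟨f, hf, rfl⟩
        simpa using (Subgroup.mem_normalizer_iff.1 (hBF hb) f).1 hf
      · rintro _ ⟨k, hk, rfl⟩
        simp only [MulEquiv.coe_toMonoidHom, MulAut.conj_apply]
        rw [hBK b hb k hk, mul_inv_cancel_right]
        exact hk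
    simpa using hmap ⟨z, hz, rfl⟩
  have hle : B ⊓ Subgroup.centralizer {v * w} ≤ K ⊓ Subgroup.centralizer {w} := by
    rintro b ⟨hb, hbc⟩
    have hb1 : b * (v * w) = v * w * b := Subgroup.mem_centralizer_singleton_iff.1 hbc
    have heq : b * v * b⁻¹ * (b * w * b⁻¹) = v * w := by
      rw [show b * v * b⁻¹ * (b * w * b⁻¹) = b * (v * w) * b⁻¹ by group, hb1, mul_inv_cancel_right]
    have hcc := hnC b hb v hvC
    have hii := hnI b hb w hw
    have hmem : v⁻¹ * (b * v * b⁻¹) ∈ C ⊓ ⁅F, K⁆ := by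
      refine ⟨C.mul_mem (C.inv_mem hvC) hcc, ?_⟩
      have : v⁻¹ * (b * v * b⁻¹) = w * (b * w * b⁻¹)⁻¹ := by
        rw [inv_mul_eq_iff_eq_mul, ← mul_assoc, eq_mul_inv_iff_mul_eq]
        exact heq
      rw [this]
      exact (⁅F, K⁆).mul_mem hw ((⁅F, K⁆).inv_mem hii)
    rw [hinf, Subgroup.mem_bot, inv_mul_eq_one] at hmem
    rw [← hmem, mul_right_inj] at heq
    refine ⟨⟨hb, Subgroup.mem_centralizer_singleton_iff.2 ?_⟩,
      Subgroup.mem_centralizer_singleton_iff.2 ?_⟩
    · exact mul_inv_eq_iff_eq_mul.1 hmem.symm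
    · exact mul_inv_eq_iff_eq_mul.1 heq
  have hlt : B ⊓ Subgroup.centralizer {v * w} < K := by
    refine lt_of_le_of_ne (hle.trans inf_le_left) fun heq => hw1 ?_
    have hwC : w ∈ C := ⟨hwF, Subgroup.mem_centralizer_iff.2 fun k hk =>
      Subgroup.mem_centralizer_singleton_iff.1 (hle (heq.ge hk)).2⟩
    exact (Subgroup.eq_bot_iff_forall _).1 hinf w ⟨hwC, hw⟩
  have hcard := hmin ⟨v * w, mul_mem hv hwF⟩
  exact absurd (Subgroup.eq_of_le_of_card_ge hlt.le hcard) hlt.ne

/-- Counting the orbit of `v` and of `v⁻¹` under a group of odd order acting freely on `v`. -/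
theorem two_mul_card_lt {B F : Subgroup G} (hBF : B ≤ Subgroup.normalizer (F : Set G))
    (hB : Odd (Nat.card B)) (hF : Odd (Nat.card F)) (hB1 : B ≠ ⊥) {v : G} (hv : v ∈ F)
    (hfree : B ⊓ Subgroup.centralizer {v} = ⊥) : 2 * Nat.card B + 1 ≤ Nat.card F := by
  classical
  have hv1 : v ≠ 1 := by
    rintro rfl
    refine hB1 (eq_bot_iff.2 fun b hb => hfree.le ⟨hb, ?_⟩)
    exact Subgroup.mem_centralizer_singleton_iff.2 (by simp)
  have hmem : ∀ b : B, (b : G) * v * (b : G)⁻¹ ∈ F := fun b =>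
    (Subgroup.mem_normalizer_iff.1 (hBF b.2) v).1 hv
  have hinj : ∀ b c : B, (b : G) * v * (b : G)⁻¹ = (c : G) * v * (c : G)⁻¹ → b = c := fun b c h => by
    have : ((c⁻¹ * b : B) : G) ∈ B ⊓ Subgroup.centralizer {v} := by
      refine ⟨(c⁻¹ * b : B).2, Subgroup.mem_centralizer_singleton_iff.2 ?_⟩
      calc ((c⁻¹ * b : B) : G) * v = (c : G)⁻¹ * ((b : G) * v * (b : G)⁻¹) * b := by push_cast; group
        _ = v * ((c⁻¹ * b : B) : G) := by rw [h]; push_cast; group
    rw [hfree, Subgroup.mem_bot] at this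
    exact (inv_mul_eq_one.1 (Subtype.ext this : c⁻¹ * b = 1)).symm
  have hneg : ∀ b c : B, (b : G) * v * (b : G)⁻¹ ≠ ((c : G) * v * (c : G)⁻¹)⁻¹ := fun b c h => by
    set d : B := c⁻¹ * b with hd
    have h1 : (d : G) * v * (d : G)⁻¹ = v⁻¹ := by
      calc (d : G) * v * (d : G)⁻¹ = (c : G)⁻¹ * ((b : G) * v * (b : G)⁻¹) * c := by
            rw [hd]; push_cast; group
        _ = v⁻¹ := by rw [h]; group
    have h2 : d * d = 1 := hinj (d * d) 1 (by
      calc ((d * d : B) : G) * v * ((d * d : B) : G)⁻¹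
          = (d : G) * ((d : G) * v * (d : G)⁻¹) * (d : G)⁻¹ := by push_cast; group
        _ = (d : G) * v⁻¹ * (d : G)⁻¹ := by rw [h1]
        _ = ((d : G) * v * (d : G)⁻¹)⁻¹ := by group
        _ = v := by rw [h1, inv_inv]
        _ = _ := by simp)
    have h3 : d = 1 := eq_one_of_two_odd (k := 1) (by rw [pow_one, pow_two, h2]) hB pow_card_eq_one'
    rw [h3, OneMemClass.coe_one, one_mul, inv_one, mul_one] at h1
    exact hv1 (eq_one_of_two_odd (k := 1)
      (by rw [pow_one, pow_two]; exact mul_eq_one_iff_eq_inv.2 h1) hF (pow_card_eq_one_of_mem hv))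
  let f : Option (B ⊕ B) → F := fun o => match o with
    | none => 1
    | some (Sum.inl b) => ⟨_, hmem b⟩
    | some (Sum.inr b) => ⟨_, inv_mem (hmem b)⟩
  have hne1 : ∀ b : B, (b : G) * v * (b : G)⁻¹ ≠ 1 := fun b h => hv1 (conj_eq_one_iff.1 h)
  have hf : Function.Injective f := by
    rintro (_ | b | b) (_ | c | c) h <;> simp only [f, Subtype.ext_iff, OneMemClass.coe_one] at h
    · rfl
    · exact absurd h.symm (hne1 c)
    · exact absurd (inv_eq_one.1 h.symm) (hne1 c)
    · exact absurd h (hne1 b)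
    · rw [hinj b c h]
    · exact absurd h (hneg b c)
    · exact absurd (inv_eq_one.1 h) (hne1 b)
    · exact absurd h.symm (hneg c b)
    · rw [hinj b c (inv_injective h)]
  have := Nat.card_le_card_of_injective f hf
  rwa [Finite.card_option, Nat.card_sum, ← two_mul] at this

end CfsgLib.MetacyclicP.TwoPowerIndex
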