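/-
MetacyclicP: a simple nonsolvable group with abelian Sylow subgroups which is the product of an
abelian Sylow 2-subgroup and an odd order subgroup: first properties.
-/
import Cfsg.Agent.Lib.MetacyclicP.TwoPowerIndex.Basic
import Cfsg.Agent.S0018
import Cfsg.Agent.S0205

set_option autoImplicit false
set_option linter.style.haveILetI false
set_option linter.unusedSectionVars false

namespace CfsgLib.MetacyclicP.TwoPowerIndex

variable {G : Type*} [Group G] [Finite G]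

/-- The situation in a minimal counterexample. -/
structure Setup (H T : Subgroup G) : Prop where
  simple : ∀ N : Subgroup G, N.Normal → N = ⊥ ∨ N = ⊤
  notSolv : ¬ Group.IsSolvable G
  oddH : Odd (Nat.card H)
  twoT : IsPGroup 2 T
  compl : T.IsComplement' H
  abel : AbelianP G
  ind : ∀ L : Subgroup G, L ≠ ⊤ → (∃ k : ℕ, H.relIndex L = 2 ^ k) → Group.IsSolvable L

namespace Setup

variable {H T : Subgroup G} (S : Setup H T)

include S

theorem exists_th (g : G) : ∃ τ ∈ T, ∃ h ∈ H, τ * h = g := by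
  obtain ⟨x, hx, -⟩ := S.compl.existsUnique g
  exact ⟨x.1, x.1.2, x.2, x.2.2, hx⟩

theorem exists_ht (g : G) : ∃ h ∈ H, ∃ τ ∈ T, h * τ = g := by
  obtain ⟨τ, hτ, h, hh, he⟩ := S.exists_th g⁻¹
  exact ⟨h⁻¹, inv_mem hh, τ⁻¹, inv_mem hτ, by rw [← mul_inv_rev, he, inv_inv]⟩

theorem eq_one_of_mem {x : G} (hT : x ∈ T) (hH : x ∈ H) : x = 1 := by
  obtain ⟨k, hk⟩ := exists_two_pow_of_mem S.twoT hT
  exact eq_one_of_two_odd hk S.oddH (pow_card_eq_one_of_mem hH)

theorem eq_of {a b : G} (ha : a ∈ T) (hb : b ∈ T) (h : a⁻¹ * b ∈ H) : a = b :=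
  inv_mul_eq_one.1 (S.eq_one_of_mem (mul_mem (inv_mem ha) hb) h)

/-- Every coset is represented in `T`. -/
theorem exists_maps (g a : G) : ∃ b ∈ T, b⁻¹ * (g * a) ∈ H := by
  obtain ⟨τ, hτ, h, hh, he⟩ := S.exists_th (g * a)
  exact ⟨τ, hτ, by rw [← he, inv_mul_cancel_left]; exact hh⟩

theorem commT {a b : G} (ha : a ∈ T) (hb : b ∈ T) : a * b = b * a :=
  S.abel 2 Nat.prime_two T S.twoT a ha b hb

theorem index_H : H.index = Nat.card T := S.compl.index_eq_card

theorem index_T : T.index = Nat.card H := S.compl.symm.index_eq_card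

theorem odd_index_T : Odd T.index := S.index_T ▸ S.oddH

theorem coe_sylow : ∃ P : Sylow 2 G, (P : Subgroup G) = T :=
  ⟨S.twoT.toSylow S.odd_index_T.not_two_dvd_nat, rfl⟩

theorem T_ne_bot : T ≠ ⊥ := by
  intro h
  refine S.notSolv (Cfsg.Agent.S0205.result ?_)
  rw [← S.compl.card_mul_card, h, Subgroup.card_bot, one_mul]
  exact S.oddH

theorem T_ne_top : T ≠ ⊤ := fun h =>
  S.notSolv (Group.isSolvable_of_comm fun a b => S.commT (h ▸ Subgroup.mem_top a)
    (h ▸ Subgroup.mem_top b))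

theorem H_ne_top : H ≠ ⊤ := by
  intro h
  refine S.T_ne_bot ((Subgroup.eq_bot_iff_forall _).2 fun x hx => ?_)
  exact S.eq_one_of_mem hx (h ▸ Subgroup.mem_top x)

theorem solvH : Group.IsSolvable H := Cfsg.Agent.S0205.result S.oddH

theorem H_ne_bot : H ≠ ⊥ := by
  intro h
  refine S.T_ne_top ((Subgroup.eq_top_iff' _).2 fun g => ?_)
  obtain ⟨τ, hτ, x, hx, rfl⟩ := S.exists_th g
  rw [h, Subgroup.mem_bot] at hx
  simpa [hx] using hτ

theorem normalizer_ne_top {K : Subgroup G} (h1 : K ≠ ⊥) (h2 : K ≠ ⊤) :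
    Subgroup.normalizer (K : Set G) ≠ ⊤ := fun h =>
  (S.simple K (Subgroup.normalizer_eq_top_iff.1 h)).elim h1 h2

theorem center_eq_bot : Subgroup.center G = ⊥ := by
  refine (S.simple _ inferInstance).resolve_right fun h => S.notSolv ?_
  exact Group.isSolvable_of_comm fun a b =>
    (Subgroup.mem_center_iff.1 (h ▸ Subgroup.mem_top a) b).symm

theorem centralizer_singleton_ne_top {x : G} (hx : x ≠ 1) : Subgroup.centralizer {x} ≠ ⊤ := by
  intro h
  refine hx ?_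
  rw [← Subgroup.mem_bot, ← S.center_eq_bot]
  exact Subgroup.mem_center_iff.2 fun g =>
    Subgroup.mem_centralizer_singleton_iff.1 (h ▸ Subgroup.mem_top g)

theorem normalCore_eq_bot {M : Subgroup G} (hM : M ≠ ⊤) : M.normalCore = ⊥ :=
  (S.simple _ (Subgroup.normalCore_normal M)).resolve_right fun h =>
    hM (top_le_iff.1 (h ▸ Subgroup.normalCore_le M))

/-- An element of `W` whose `T`-component normalises the odd order subgroup `W` lies in `H`. -/
theorem tcomp_eq_one {W : Subgroup G} (hW : Odd (Nat.card W)) {τ h : G} (hτ : τ ∈ T)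
    (hτW : τ ∈ Subgroup.normalizer (W : Set G)) (hh : h ∈ H) (hmem : τ * h ∈ W) : τ = 1 := by
  set N := Subgroup.normalizer (W : Set G)
  have hhN : h ∈ N := by
    simpa using mul_mem (inv_mem hτW) (Subgroup.le_normalizer hmem)
  let π := QuotientGroup.mk' (W.subgroupOf N)
  have h1 : π ⟨τ, hτW⟩ * π ⟨h, hhN⟩ = 1 := by
    rw [← map_mul]
    exact (QuotientGroup.eq_one_iff _).2 (Subgroup.mem_subgroupOf.2 hmem)
  obtain ⟨k, hk⟩ := exists_two_pow_of_mem S.twoT hτ
  have hk' : (⟨τ, hτW⟩ : N) ^ 2 ^ k = 1 := Subtype.ext (by simpa using hk)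
  have hh' : (⟨h, hhN⟩ : N) ^ Nat.card H = 1 :=
    Subtype.ext (by simpa using pow_card_eq_one_of_mem hh)
  have h2 : π ⟨τ, hτW⟩ = 1 := by
    refine eq_one_of_two_odd (k := k) (by rw [← map_pow, hk', map_one]) S.oddH ?_
    rw [eq_inv_of_mul_eq_one_left h1, inv_pow, ← map_pow, hh', map_one, inv_one]
  exact eq_one_of_two_odd hk hW
    (pow_card_eq_one_of_mem (Subgroup.mem_subgroupOf.1 ((QuotientGroup.eq_one_iff _).1 h2)))

theorem le_H_of_normalized {W : Subgroup G} (hW : Odd (Nat.card W))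
    (hTW : T ≤ Subgroup.normalizer (W : Set G)) : W ≤ H := by
  intro w hw
  obtain ⟨τ, hτ, h, hh, rfl⟩ := S.exists_th w
  rwa [S.tcomp_eq_one hW hτ (hTW hτ) hh hw, one_mul]

/-- A subgroup of odd order normalised by `T` is trivial. -/
theorem eq_bot_of_normalized {W : Subgroup G} (hW : Odd (Nat.card W))
    (hTW : T ≤ Subgroup.normalizer (W : Set G)) : W = ⊥ := by
  rw [eq_bot_iff, ← S.normalCore_eq_bot S.H_ne_top]
  intro w hw g
  obtain ⟨h, hh, τ, hτ, rfl⟩ := S.exists_ht g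
  have h1 : τ * w * τ⁻¹ ∈ H :=
    S.le_H_of_normalized hW hTW ((Subgroup.mem_normalizer_iff.1 (hTW hτ) w).1 hw)
  rw [show h * τ * w * (h * τ)⁻¹ = h * (τ * w * τ⁻¹) * h⁻¹ by group]
  exact mul_mem (mul_mem hh h1) (inv_mem hh)

/-- The index of `H` in a subgroup which is a product of its parts in `T` and in `H`. -/
theorem relIndex_eq {L : Subgroup G} (hL : ∀ g ∈ L, ∃ τ ∈ T ⊓ L, τ⁻¹ * g ∈ H) :
    H.relIndex L = Nat.card ↥(T ⊓ L) := by
  obtain ⟨pr, hpr⟩ := Classical.axiomOfChoice fun g => S.exists_maps g 1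
  refine (card_eq_relIndex (K := L) (L := H) pr ((T ⊓ L : Subgroup G) : Set G) ?_ ?_).symm
  · intro a _ b _
    obtain ⟨ha, ha'⟩ := hpr a
    obtain ⟨hb, hb'⟩ := hpr b
    rw [mul_one] at ha' hb'
    constructor
    · intro h
      have := mul_mem (inv_mem ha') hb'
      rw [h] at this
      rwa [mul_inv_rev, inv_inv, mul_assoc, mul_inv_cancel_left] at this
    · intro h
      refine S.eq_of ha hb ?_
      have := mul_mem (mul_mem ha' h) (inv_mem hb')
      convert this using 1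
      group
  · intro u
    constructor
    · intro hu
      obtain ⟨hu1, hu2⟩ := hpr u
      rw [mul_one] at hu2
      exact ⟨u, hu.2, S.eq_of hu1 hu.1 hu2⟩
    · rintro ⟨k, hk, rfl⟩
      obtain ⟨τ, hτ, hτk⟩ := hL k hk
      obtain ⟨hk1, hk2⟩ := hpr k
      rw [mul_one] at hk2
      have : pr k = τ := S.eq_of hk1 hτ.1 (by
        have := mul_mem hk2 (inv_mem hτk)
        convert this using 1
        group)
      exact this ▸ hτ

theorem solvable_of_product {L : Subgroup G} (hne : L ≠ ⊤)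
    (hL : ∀ g ∈ L, ∃ τ ∈ T ⊓ L, τ⁻¹ * g ∈ H) : Group.IsSolvable L := by
  obtain ⟨k, hk⟩ := IsPGroup.iff_card.1 (S.twoT.to_le (inf_le_left : T ⊓ L ≤ T))
  exact S.ind L hne ⟨k, (S.relIndex_eq hL).trans hk⟩

/-- The centraliser of an involution of `T` normalises `T`. -/
theorem centralizer_le_normalizer {t : G} (ht : t ∈ T) (ht1 : t ≠ 1) :
    Subgroup.centralizer {t} ≤ Subgroup.normalizer (T : Set G) := by
  set C := Subgroup.centralizer {t} with hC
  have hTC : T ≤ C := fun x hx =>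
    Subgroup.mem_centralizer_singleton_iff.2 (S.commT hx ht)
  have hsol : Group.IsSolvable C := S.solvable_of_product (S.centralizer_singleton_ne_top ht1)
    fun g _ => by
      obtain ⟨τ, hτ, h, hh, rfl⟩ := S.exists_th g
      exact ⟨τ, ⟨hτ, hTC hτ⟩, by rwa [inv_mul_cancel_left]⟩
  have hidx : ¬ 2 ∣ (T.subgroupOf C).index := fun hd =>
    S.odd_index_T.not_two_dvd_nat (hd.trans (Subgroup.relIndex_dvd_index_of_le hTC))
  let P : Sylow 2 C := IsPGroup.toSylow (p := 2)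
    (S.twoT.of_equiv (Subgroup.subgroupOfEquivOfLe hTC).symm) hidx
  have hP : (P : Subgroup C) = T.subgroupOf C := rfl
  haveI : IsMulCommutative (P : Subgroup C) := (S.abel.subgroup C).isMulCommutative Nat.prime_two P.2
  have hN := Cfsg.Agent.S0018.result 2 P inferInstance
  have hO : Cfsg.pPrimeCore 2 C = ⊥ := by
    have hcard : Nat.card ((Cfsg.pPrimeCore 2 C).map C.subtype) = Nat.card (Cfsg.pPrimeCore 2 C) :=
      Subgroup.card_map_of_injective C.subtype_injective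
    have := S.eq_bot_of_normalized (W := (Cfsg.pPrimeCore 2 C).map C.subtype)
      (hcard ▸ Nat.coprime_two_right.1 (CfsgLib.Cores.card_pPrimeCore_coprime 2))
      (hTC.trans fun c hc => Subgroup.le_normalizer_map C.subtype
        ⟨⟨c, hc⟩, Subgroup.normalizer_eq_top (H := Cfsg.pPrimeCore 2 C) ▸ Subgroup.mem_top _, rfl⟩)
    exact (Subgroup.map_eq_bot_iff_of_injective _ C.subtype_injective).1 this
  rw [hO, sup_bot_eq, hP] at hN
  exact (Subgroup.normal_subgroupOf_iff_le_normalizer hTC).1 hN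

/-- A 2-group normalising `T` lies in `T`. -/
theorem le_of_le_normalizer {U : Subgroup G} (hU : IsPGroup 2 U)
    (hN : U ≤ Subgroup.normalizer (T : Set G)) : U ≤ T := by
  obtain ⟨P, hP⟩ := S.coe_sylow
  have h := hU.inf_normalizer_sylow P
  have hPset : ((P : Sylow 2 G) : Set G) = (T : Set G) := by rw [← hP]; rfl
  rw [hPset, inf_eq_left.2 hN, hP] at h
  exact inf_eq_left.1 h.symm

/-- An involution lies in a unique conjugate of `T`. -/
theorem unique {t g : G} (ht : t ∈ T) (ht1 : t ≠ 1) (hg : g⁻¹ * t * g ∈ T) :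
    g ∈ Subgroup.normalizer (T : Set G) := by
  refine CfsgLib.PGroups.mem_normalizer_of_map_eq (Subgroup.eq_of_le_of_card_ge ?_ ?_)
  · refine S.le_of_le_normalizer (S.twoT.map _) ?_
    rintro _ ⟨x, hx, rfl⟩
    refine S.centralizer_le_normalizer ht ht1 (Subgroup.mem_centralizer_singleton_iff.2 ?_)
    simp only [MulEquiv.coe_toMonoidHom, MulAut.conj_apply]
    calc g * x * g⁻¹ * t = g * (x * (g⁻¹ * t * g)) * g⁻¹ := by group
      _ = t * (g * x * g⁻¹) := by rw [S.commT hx hg]; group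
  · rw [Subgroup.card_map_of_injective (MulAut.conj g).injective]

/-- A 2-group is conjugate into `T` by an element of `H`. -/
theorem exists_conj_le {U : Subgroup G} (hU : IsPGroup 2 U) :
    ∃ h ∈ H, ∀ u ∈ U, h⁻¹ * u * h ∈ T := by
  obtain ⟨P, hP⟩ := S.coe_sylow
  obtain ⟨Q, hQ⟩ := hU.exists_le_sylow
  obtain ⟨g, rfl⟩ := MulAction.exists_smul_eq G P Q
  obtain ⟨h, hh, τ, hτ, rfl⟩ := S.exists_ht g
  refine ⟨h, hh, fun u hu => ?_⟩
  obtain ⟨d, hd, rfl⟩ := hQ hu
  rw [SetLike.mem_coe, hP] at hd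
  simpa [mul_assoc] using T.mul_mem (T.mul_mem hτ hd) (T.inv_mem hτ)

omit [Finite G] S in
theorem isPGroup_zpowers {u : G} (hu : u * u = 1) : IsPGroup 2 (Subgroup.zpowers u) := by
  rintro ⟨x, hx⟩
  obtain ⟨i, rfl⟩ := Subgroup.mem_zpowers_iff.1 hx
  refine ⟨1, Subtype.ext ?_⟩
  rw [SubmonoidClass.coe_pow, OneMemClass.coe_one, ← zpow_natCast, ← zpow_mul, mul_comm, zpow_mul]
  simp [pow_two, hu]

theorem exists_conj_mem {u : G} (hu : u * u = 1) : ∃ h ∈ H, h⁻¹ * u * h ∈ T := by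
  obtain ⟨h, hh, hle⟩ := S.exists_conj_le (isPGroup_zpowers hu)
  exact ⟨h, hh, hle u (Subgroup.mem_zpowers u)⟩

/-- Involutions in different conjugates of `T` are conjugate. -/
theorem isConj_of_ne {u v : G} (hu : u * u = 1) (hu1 : u ≠ 1) (hv : v * v = 1) (hv1 : v ≠ 1)
    (hne : ∀ h : G, h⁻¹ * u * h ∈ T → h⁻¹ * v * h ∉ T) : IsConj u v := by
  refine (conj_or_common hu hu1 hv hv1).elim (fun ⟨g, hg⟩ => isConj_iff.2 ⟨g, hg⟩) ?_
  rintro ⟨w, hw, hw1, hwu, hwv⟩
  obtain ⟨h, -, hh⟩ := S.exists_conj_mem hw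
  have hw1' : h⁻¹ * w * h ≠ 1 := fun hc => hw1 (by
    simpa [mul_assoc] using congrArg (fun x => h * x * h⁻¹) hc)
  have key : ∀ x : G, x * x = 1 → Commute w x → h⁻¹ * x * h ∈ T := fun x hx hwx => by
    refine S.le_of_le_normalizer (isPGroup_zpowers (u := h⁻¹ * x * h) ?_) ?_
      (Subgroup.mem_zpowers _)
    · rw [show h⁻¹ * x * h * (h⁻¹ * x * h) = h⁻¹ * (x * x) * h by group, hx, mul_one,
        inv_mul_cancel]
    · refine Subgroup.zpowers_le.2 (S.centralizer_le_normalizer hh hw1'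
        (Subgroup.mem_centralizer_singleton_iff.2 ?_))
      calc h⁻¹ * x * h * (h⁻¹ * w * h) = h⁻¹ * (x * w) * h := by group
        _ = h⁻¹ * w * h * (h⁻¹ * x * h) := by rw [← hwx.eq]; group
  exact absurd (key v hv hwv) (hne h (key u hu hwu))

theorem exists_outside : ∃ g : G, g ∉ Subgroup.normalizer (T : Set G) := by
  by_contra h
  push Not at h
  exact S.normalizer_ne_top S.T_ne_bot S.T_ne_top ((Subgroup.eq_top_iff' _).2 h)

/-- Any two involutions are conjugate by an element of `H`, if one of them lies in `T`. -/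
theorem exists_conj_H {t u : G} (ht : t ∈ T) (ht2 : t * t = 1) (ht1 : t ≠ 1) (hu : u * u = 1)
    (hu1 : u ≠ 1) : ∃ h ∈ H, h * t * h⁻¹ = u := by
  obtain ⟨g₀, hg₀⟩ := S.exists_outside
  have hdiff : ∀ a b : G, a ∈ T → a ≠ 1 → b ∈ T → ∀ h : G, h⁻¹ * a * h ∈ T →
      h⁻¹ * (g₀ * b * g₀⁻¹) * h ∈ T → b = 1 := by
    intro a b ha ha1 hb h hha hhb
    by_contra hb1
    have h1 := S.unique ha ha1 hha
    have h2 : g₀ * b * g₀⁻¹ ∈ T := (Subgroup.mem_normalizer_iff''.1 h1 _).2 hhb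
    exact hg₀ (inv_mem_iff.1 (S.unique hb hb1 (g := g₀⁻¹) (by rwa [inv_inv])))
  have hT : ∀ b : G, b ∈ T → b * b = 1 → b ≠ 1 → IsConj t b := by
    intro b hb hb2 hb1
    have hv2 : g₀ * b * g₀⁻¹ * (g₀ * b * g₀⁻¹) = 1 := by
      rw [show g₀ * b * g₀⁻¹ * (g₀ * b * g₀⁻¹) = g₀ * (b * b) * g₀⁻¹ by group, hb2, mul_one,
        mul_inv_cancel]
    have hv1 : g₀ * b * g₀⁻¹ ≠ 1 := fun h => hb1 (conj_eq_one_iff.1 h)
    exact (S.isConj_of_ne ht2 ht1 hv2 hv1 fun h hh hh' => hb1 (hdiff t b ht ht1 hb h hh hh')).trans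
      (isConj_iff.2 ⟨g₀, rfl⟩).symm
  obtain ⟨k, -, hk⟩ := S.exists_conj_mem hu
  have hk2 : k⁻¹ * u * k * (k⁻¹ * u * k) = 1 := by
    rw [show k⁻¹ * u * k * (k⁻¹ * u * k) = k⁻¹ * (u * u) * k by group, hu, mul_one, inv_mul_cancel]
  have hk1 : k⁻¹ * u * k ≠ 1 := fun hc => hu1 (by
    simpa [mul_assoc] using congrArg (fun x => k * x * k⁻¹) hc)
  obtain ⟨g, hg⟩ := isConj_iff.1 (hT _ hk hk2 hk1)
  obtain ⟨h, hh, τ, hτ, he⟩ := S.exists_ht (k * g)
  refine ⟨h, hh, ?_⟩
  calc h * t * h⁻¹ = h * (τ * t * τ⁻¹) * h⁻¹ := by rw [S.commT hτ ht, mul_inv_cancel_right]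
    _ = h * τ * t * (h * τ)⁻¹ := by group
    _ = k * (g * t * g⁻¹) * k⁻¹ := by rw [he]; group
    _ = u := by rw [hg]; group

end Setup

end CfsgLib.MetacyclicP.TwoPowerIndex
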