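/-
MetacyclicP: in the minimal configuration the action on the cosets of the odd order subgroup is
doubly transitive; counting of involutions.
-/
import Cfsg.Agent.Lib.MetacyclicP.TwoPowerIndex.Setup

set_option autoImplicit false
set_option linter.style.haveILetI false
set_option linter.unusedSectionVars false

namespace CfsgLib.MetacyclicP.TwoPowerIndex

variable {G : Type*} [Group G]

/-- The subgroup of `H` fixing the coset `t H`. -/
def stab (H : Subgroup G) (t : G) : Subgroup G :=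
  H ⊓ H.comap (MulAut.conj t⁻¹).toMonoidHom

theorem mem_stab {H : Subgroup G} {t x : G} : x ∈ stab H t ↔ x ∈ H ∧ t⁻¹ * x * t ∈ H := by
  simp [stab]

theorem stab_le (H : Subgroup G) (t : G) : stab H t ≤ H := inf_le_left

theorem inf_centralizer_le_stab (H : Subgroup G) (t : G) :
    H ⊓ Subgroup.centralizer {t} ≤ stab H t := by
  rintro x ⟨hx, hxt⟩
  refine mem_stab.2 ⟨hx, ?_⟩
  rw [mul_assoc, Subgroup.mem_centralizer_singleton_iff.1 hxt, inv_mul_cancel_left]
  exact hx

variable [Finite G]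

namespace Setup

variable {H T : Subgroup G} (S : Setup H T)

include S

/-- An element of order two among the powers. -/
theorem exists_involution_pow {x : G} (hx : x ∈ T) (hx1 : x ≠ 1) :
    ∃ i : ℕ, x ^ i * x ^ i = 1 ∧ x ^ i ≠ 1 := by
  obtain ⟨k, hk⟩ := exists_two_pow_of_mem S.twoT hx
  induction k with
  | zero => exact absurd (by simpa using hk) hx1
  | succ k ih =>
    by_cases h : x ^ 2 ^ k = 1
    · exact ih h
    · exact ⟨2 ^ k, by rw [← pow_add, ← two_mul, ← pow_succ', hk], h⟩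

theorem exists_involution : ∃ t ∈ T, t * t = 1 ∧ t ≠ 1 := by
  obtain ⟨x, hx, hx1⟩ : ∃ x ∈ T, x ≠ 1 := by
    by_contra h
    push Not at h
    exact S.T_ne_bot ((Subgroup.eq_bot_iff_forall _).2 h)
  obtain ⟨i, hi⟩ := S.exists_involution_pow hx hx1
  exact ⟨x ^ i, T.pow_mem hx i, hi⟩

/-- `H` is transitive on the nontrivial cosets. -/
theorem exists_double_coset {t a₀ : G} (ht : t ∈ T) (ht2 : t * t = 1) (ht1 : t ≠ 1) (ha₀ : a₀ ∈ T)
    (ha₀1 : a₀ ≠ 1) : ∃ h ∈ H, a₀⁻¹ * (h * t) ∈ H := by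
  classical
  letI := Fintype.ofFinite G
  obtain ⟨pr, hpr⟩ := Classical.axiomOfChoice fun g => S.exists_maps g 1
  replace hpr : ∀ g : G, pr g ∈ T ∧ (pr g)⁻¹ * g ∈ H := fun g => by simpa using hpr g
  set A : Finset G := Finset.univ.filter fun τ => τ ∈ T ∧ ∃ h ∈ H, τ⁻¹ * (h * a₀) ∈ H with hA
  have memA : ∀ τ, τ ∈ A ↔ τ ∈ T ∧ ∃ h ∈ H, τ⁻¹ * (h * a₀) ∈ H := fun τ => by simp [hA]
  have hcl : ∀ τ ∈ A, ∀ h ∈ H, ∀ τ' ∈ T, τ'⁻¹ * (h * τ) ∈ H → τ' ∈ A := by
    intro τ hτ h hh τ' hτ' hrel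
    obtain ⟨-, k, hk, hk'⟩ := (memA τ).1 hτ
    refine (memA τ').2 ⟨hτ', h * k, mul_mem hh hk, ?_⟩
    convert mul_mem hrel hk' using 1
    group
  -- the orbit has odd size
  have hAodd : Odd A.card := by
    have h1 : Nat.card (A : Set G) = (stab H a₀).relIndex H := by
      refine card_eq_relIndex (fun h => pr (h * a₀)) _ (fun a ha b hb => ?_) (fun u => ?_)
      · obtain ⟨ha1, ha2⟩ := hpr (a * a₀)
        obtain ⟨hb1, hb2⟩ := hpr (b * a₀)
        rw [mem_stab]
        constructor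
        · intro h
          refine ⟨mul_mem (inv_mem ha) hb, ?_⟩
          have := mul_mem (inv_mem ha2) hb2
          rw [h] at this
          convert this using 1
          group
        · intro h
          refine S.eq_of ha1 hb1 ?_
          have := mul_mem (mul_mem ha2 h.2) (inv_mem hb2)
          convert this using 1
          group
      · rw [Finset.mem_coe, memA]
        constructor
        · rintro ⟨hu, h, hh, hu'⟩
          obtain ⟨h1, h2⟩ := hpr (h * a₀)
          refine ⟨h, hh, S.eq_of h1 hu ?_⟩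
          have := mul_mem h2 (inv_mem hu')
          convert this using 1
          group
        · rintro ⟨k, hk, rfl⟩
          exact ⟨(hpr _).1, k, hk, (hpr _).2⟩
    rw [Nat.card_coe_set_eq, Set.ncard_coe_finset] at h1
    exact h1 ▸ S.oddH.of_dvd_nat (Subgroup.relIndex_dvd_card _ _)
  let sP : G → Finset G := fun w => A.filter fun a => a⁻¹ * w ∈ A
  let R : G → Finset G := fun w => A.filter fun a => a * a = w
  have hpar : ∀ w ∈ T, (Odd (sP w).card ↔ Odd (R w).card) := by
    intro w hw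
    rw [card_filter_fixed_mod_two (sP w) (fun a => a⁻¹ * w) (fun a ha => ?_) (fun a ha => ?_)]
    · suffices ((sP w).filter fun a => a⁻¹ * w = a) = R w by rw [this]
      ext a
      simp only [sP, R, Finset.mem_filter]
      constructor
      · rintro ⟨⟨ha, -⟩, h⟩
        exact ⟨ha, (inv_mul_eq_iff_eq_mul.1 h).symm⟩
      · rintro ⟨ha, h⟩
        have h' : a⁻¹ * w = a := inv_mul_eq_iff_eq_mul.2 h.symm
        exact ⟨⟨ha, h'.symm ▸ ha⟩, h'⟩
    all_goals
      obtain ⟨ha1, ha2⟩ := Finset.mem_filter.1 ha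
      have hinv : (a⁻¹ * w)⁻¹ * w = a := by
        rw [mul_inv_rev, inv_inv, mul_assoc, S.commT ((memA a).1 ha1).1 hw, inv_mul_cancel_left]
    · exact Finset.mem_filter.2 ⟨ha2, hinv.symm ▸ ha1⟩
    · exact hinv
  have hle : ∀ h ∈ H, ∀ w ∈ T, ∀ w' ∈ T, w'⁻¹ * (h * w) ∈ H → (sP w).card ≤ (sP w').card := by
    intro h hh w hw w' hw' hrel
    refine Finset.card_le_card_of_injOn (fun a => pr (h * a)) (fun a ha => ?_) ?_
    · obtain ⟨ha1, ha2⟩ := Finset.mem_filter.1 ha
      obtain ⟨hc1, hc2⟩ := hpr (h * a)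
      refine Finset.mem_filter.2 ⟨hcl a ha1 h hh _ hc1 hc2, ?_⟩
      refine hcl _ ha2 _ hc2 _ (mul_mem (inv_mem hc1) hw') ?_
      convert hrel using 1
      group
    · intro a ha b hb hab
      obtain ⟨-, hc2⟩ := hpr (h * a)
      obtain ⟨-, hd2⟩ := hpr (h * b)
      have := mul_mem (inv_mem hc2) hd2
      rw [show pr (h * a) = pr (h * b) from hab] at this
      refine S.eq_of ((memA a).1 (Finset.mem_filter.1 ha).1).1
        ((memA b).1 (Finset.mem_filter.1 hb).1).1 ?_
      convert this using 1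
      group
  set Sig : Set G := {w | w ∈ T ∧ Odd (R w).card}
  set T1 := Subgroup.closure Sig
  have hT1T : T1 ≤ T := (Subgroup.closure_le _).2 fun w hw => hw.1
  have hK : ∀ w ∈ T1, ∀ h ∈ H, ∃ w' ∈ T1, w'⁻¹ * (h * w) ∈ H := by
    intro w hw
    induction hw using Subgroup.closure_induction with
    | mem x hx =>
      intro h hh
      obtain ⟨h1, h2⟩ := hpr (h * x)
      refine ⟨_, Subgroup.subset_closure ⟨h1, ?_⟩, h2⟩
      have heq : (sP x).card = (sP (pr (h * x))).card :=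
        le_antisymm (hle h hh x hx.1 _ h1 h2) (hle h⁻¹ (inv_mem hh) _ h1 x hx.1 (by
          convert inv_mem h2 using 1
          group))
      rw [← hpar _ h1, ← heq, hpar x hx.1]
      exact hx.2
    | one => exact fun h hh => ⟨1, one_mem _, by simpa using hh⟩
    | mul x y _ _ hx hy =>
      intro h hh
      obtain ⟨u, hu, hu'⟩ := hx h hh
      obtain ⟨v, hv, hv'⟩ := hy _ hu'
      refine ⟨u * v, mul_mem hu hv, ?_⟩
      convert hv' using 1
      group
    | inv x _ hx =>
      have hpow : ∀ n : ℕ, ∀ h ∈ H, ∃ u ∈ T1, u⁻¹ * (h * x ^ n) ∈ H := by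
        intro n
        induction n with
        | zero => exact fun h hh => ⟨1, one_mem _, by simpa using hh⟩
        | succ n ih =>
          intro h hh
          obtain ⟨u, hu, hu'⟩ := ih h hh
          obtain ⟨v, hv, hv'⟩ := hx _ hu'
          refine ⟨u * v, mul_mem hu hv, ?_⟩
          convert hv' using 1
          group
      have hinv : x⁻¹ = x ^ (orderOf x - 1) := inv_eq_of_mul_eq_one_right (by
        rw [← pow_succ', Nat.sub_add_cancel (orderOf_pos x), pow_orderOf_eq_one])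
      exact hinv ▸ hpow _
  -- the stabiliser of `T1 H`
  let M : Subgroup G :=
    { carrier := {g | ∃ τ ∈ T1, τ⁻¹ * g ∈ H}
      one_mem' := ⟨1, one_mem _, by simp⟩
      mul_mem' := by
        rintro g g' ⟨τ, hτ, hg⟩ ⟨τ', hτ', hg'⟩
        obtain ⟨u, hu, hu'⟩ := hK τ' hτ' _ hg
        refine ⟨τ * u, mul_mem hτ hu, ?_⟩
        convert mul_mem hu' hg' using 1
        group
      inv_mem' := by
        rintro g ⟨τ, hτ, hg⟩
        obtain ⟨u, hu, hu'⟩ := hK τ⁻¹ (inv_mem hτ) _ (inv_mem hg)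
        refine ⟨u, hu, ?_⟩
        convert hu' using 1
        group }
  have memM : ∀ g, g ∈ M ↔ ∃ τ ∈ T1, τ⁻¹ * g ∈ H := fun g => Iff.rfl
  have hHM : H ≤ M := fun h hh => (memM h).2 ⟨1, one_mem _, by simpa using hh⟩
  have hT1M : T1 ≤ M := fun x hx => (memM x).2 ⟨x, hx, by simp⟩
  let Sq : Subgroup G :=
    { carrier := {x | ∃ a ∈ T, a * a = x}
      one_mem' := ⟨1, one_mem _, one_mul 1⟩
      mul_mem' := by
        rintro _ _ ⟨a, ha, rfl⟩ ⟨b, hb, rfl⟩
        exact ⟨a * b, mul_mem ha hb, by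
          rw [mul_assoc, ← mul_assoc b a b, S.commT hb ha]; group⟩
      inv_mem' := by
        rintro _ ⟨a, ha, rfl⟩
        exact ⟨a⁻¹, inv_mem ha, by group⟩ }
  have hMne : M ≠ ⊤ := by
    intro hM
    have hsurj : Function.Surjective (fun a : T => a * a) := by
      intro x
      obtain ⟨τ, hτ, hx⟩ := (memM x).1 (hM ▸ Subgroup.mem_top _)
      have hsq : τ ∈ Sq := by
        refine ((Subgroup.closure_le Sq).2 (fun w hw => ?_) : T1 ≤ Sq) hτ
        obtain ⟨a, ha⟩ := Finset.card_pos.1 hw.2.pos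
        obtain ⟨ha1, ha2⟩ := Finset.mem_filter.1 ha
        exact ⟨a, ((memA a).1 ha1).1, ha2⟩
      obtain ⟨a, ha, rfl⟩ := hsq
      exact ⟨⟨a, ha⟩, Subtype.ext (S.eq_of (hT1T hτ) x.2 hx)⟩
    have hinj := Finite.injective_iff_surjective.2 hsurj
    exact ht1 (congrArg Subtype.val
      (hinj (a₁ := ⟨t, ht⟩) (a₂ := 1) (Subtype.ext (by simpa using ht2))))
  have hT1 : ∀ x ∈ T1, x = 1 := by
    intro x hx
    rw [← Subgroup.mem_bot, ← S.normalCore_eq_bot hMne]
    intro g
    obtain ⟨h, hh, τ, hτ, rfl⟩ := S.exists_ht g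
    rw [show h * τ * x * (h * τ)⁻¹ = h * (τ * x * τ⁻¹) * h⁻¹ by group,
      S.commT hτ (hT1T hx), mul_inv_cancel_right]
    exact mul_mem (mul_mem (hHM hh) (hT1M hx)) (inv_mem (hHM hh))
  -- some element of the orbit is an involution
  obtain ⟨a, ha, haodd⟩ : ∃ a ∈ A, Odd (R (a * a)).card := by
    by_contra hcon
    push Not at hcon
    have hsum := Finset.card_eq_sum_card_fiberwise (s := A) (t := A.image fun a => a * a)
      (f := fun a => a * a) fun a ha => Finset.mem_image_of_mem _ ha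
    refine Nat.not_even_iff_odd.2 hAodd (hsum ▸ Finset.even_sum _ fun w hw => ?_)
    obtain ⟨a, ha, rfl⟩ := Finset.mem_image.1 hw
    exact Nat.not_odd_iff_even.1 (hcon a ha)
  obtain ⟨haT, h₀, hh₀, hk⟩ := (memA a).1 ha
  have ha2 : a * a = 1 := hT1 _ (Subgroup.subset_closure ⟨mul_mem haT haT, haodd⟩)
  have ha1 : a ≠ 1 := fun h => ha₀1 (S.eq_one_of_mem ha₀ (by
    rw [h, inv_one, one_mul] at hk
    simpa using mul_mem (inv_mem hh₀) hk))
  obtain ⟨h₁, hh₁, he⟩ := S.exists_conj_H ht ht2 ht1 ha2 ha1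
  refine ⟨h₀⁻¹ * h₁, mul_mem (inv_mem hh₀) hh₁, ?_⟩
  have h3 : a₀⁻¹ * (h₀⁻¹ * h₁ * t) = (a⁻¹ * (h₀ * a₀))⁻¹ * h₁ := by
    rw [← he]
    simp only [mul_inv_rev, inv_inv, mul_assoc, inv_eq_of_mul_eq_one_right ht2]
    group
  rw [h3]
  exact mul_mem (inv_mem hk) hh₁

/-- The subgroup of elements of order at most two of `T`. -/
def omega : Subgroup G where
  carrier := {x | x ∈ T ∧ x * x = 1}
  one_mem' := ⟨one_mem _, one_mul 1⟩
  mul_mem' := by
    rintro a b ⟨ha, ha2⟩ ⟨hb, hb2⟩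
    refine ⟨mul_mem ha hb, ?_⟩
    rw [mul_assoc, ← mul_assoc b a b, S.commT hb ha, mul_assoc a b b, hb2, mul_one, ha2]
  inv_mem' := by
    rintro a ⟨ha, ha2⟩
    exact ⟨inv_mem ha, by rw [← mul_inv_rev, ha2, inv_one]⟩

theorem mem_omega {x : G} : x ∈ S.omega ↔ x ∈ T ∧ x * x = 1 := Iff.rfl

/-- The number of nontrivial cosets. -/
theorem relIndex_stab {t : G} (ht : t ∈ T) (ht2 : t * t = 1) (ht1 : t ≠ 1) :
    (stab H t).relIndex H = Nat.card T - 1 := by
  obtain ⟨pr, hpr⟩ := Classical.axiomOfChoice fun g => S.exists_maps g t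
  rw [← card_eq_relIndex (K := H) (L := stab H t) pr ((T : Set G) \ {1}) ?_ ?_]
  · rw [Nat.card_coe_set_eq, Set.ncard_sdiff_singleton_of_mem T.one_mem, ← Nat.card_coe_set_eq]
    rfl
  · intro a ha b hb
    obtain ⟨ha1, ha2⟩ := hpr a
    obtain ⟨hb1, hb2⟩ := hpr b
    rw [mem_stab]
    constructor
    · intro h
      refine ⟨mul_mem (inv_mem ha) hb, ?_⟩
      have := mul_mem (inv_mem ha2) hb2
      rw [h] at this
      convert this using 1
      group
    · intro h
      refine S.eq_of ha1 hb1 ?_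
      have := mul_mem (mul_mem ha2 h.2) (inv_mem hb2)
      convert this using 1
      group
  · intro u
    constructor
    · rintro ⟨hu, hu1⟩
      obtain ⟨h, hh, hu'⟩ := S.exists_double_coset ht ht2 ht1 hu hu1
      obtain ⟨h1, h2⟩ := hpr h
      refine ⟨h, hh, S.eq_of h1 hu ?_⟩
      have := mul_mem h2 (inv_mem hu')
      convert this using 1
      group
    · rintro ⟨k, hk, rfl⟩
      obtain ⟨h1, h2⟩ := hpr k
      refine ⟨h1, fun h => ht1 (S.eq_one_of_mem ht ?_)⟩
      rw [Set.mem_singleton_iff] at h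
      rw [h, inv_one, one_mul] at h2
      simpa using mul_mem (inv_mem hk) h2

/-- The involutions of `T` are conjugate under `H ⊓ N(T)`. -/
theorem relIndex_centralizer {t : G} (ht : t ∈ T) (ht2 : t * t = 1) (ht1 : t ≠ 1) :
    (H ⊓ Subgroup.centralizer {t}).relIndex (H ⊓ Subgroup.normalizer (T : Set G)) =
      Nat.card S.omega - 1 := by
  rw [← card_eq_relIndex (fun h => h * t * h⁻¹) ((S.omega : Set G) \ {1}) ?_ ?_]
  · rw [Nat.card_coe_set_eq, Set.ncard_sdiff_singleton_of_mem S.omega.one_mem,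
      ← Nat.card_coe_set_eq]
    rfl
  · intro a ha b hb
    simp only [Subgroup.mem_inf, Subgroup.mem_centralizer_singleton_iff]
    constructor
    · intro h
      refine ⟨mul_mem (inv_mem ha.1) hb.1, ?_⟩
      calc a⁻¹ * b * t = a⁻¹ * (b * t * b⁻¹) * b := by group
        _ = t * (a⁻¹ * b) := by rw [← h]; group
    · rintro ⟨-, h⟩
      calc a * t * a⁻¹ = a * (t * (a⁻¹ * b)) * b⁻¹ := by group
        _ = b * t * b⁻¹ := by rw [← h]; group
  · intro u
    constructor
    · rintro ⟨⟨hu, hu2⟩, hu1⟩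
      obtain ⟨h, hh, rfl⟩ := S.exists_conj_H ht ht2 ht1 hu2 hu1
      have h1 := S.unique ht ht1 (g := h⁻¹) (by rwa [inv_inv])
      exact ⟨h, ⟨hh, (Subgroup.inv_mem_iff _).1 h1⟩, rfl⟩
    · rintro ⟨k, hk, rfl⟩
      refine ⟨S.mem_omega.2 ⟨(Subgroup.mem_normalizer_iff.1 hk.2 t).1 ht, ?_⟩, ?_⟩
      · rw [show k * t * k⁻¹ * (k * t * k⁻¹) = k * (t * t) * k⁻¹ by group, ht2, mul_one,
          mul_inv_cancel]
      · exact fun h => ht1 (conj_eq_one_iff.1 (Set.mem_singleton_iff.1 h))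

/-- The two ways of counting involutions. -/
theorem count {t : G} (ht : t ∈ T) (ht2 : t * t = 1) (ht1 : t ≠ 1) :
    (H ⊓ Subgroup.centralizer {t}).relIndex (stab H t) * (Nat.card T - 1) =
      (Nat.card S.omega - 1) * (H ⊓ Subgroup.normalizer (T : Set G)).relIndex H := by
  have hEN : H ⊓ Subgroup.centralizer {t} ≤ H ⊓ Subgroup.normalizer (T : Set G) :=
    inf_le_inf le_rfl (S.centralizer_le_normalizer ht ht1)
  rw [← S.relIndex_stab ht ht2 ht1, ← S.relIndex_centralizer ht ht2 ht1,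
    Subgroup.relIndex_mul_relIndex _ _ _ (inf_centralizer_le_stab H t) (stab_le H t),
    Subgroup.relIndex_mul_relIndex _ _ _ hEN inf_le_left]

/-- The number of conjugates of `T` is congruent to one modulo the order of `T`. -/
theorem dvd_relIndex_normalizer_sub_one :
    Nat.card T ∣ (H ⊓ Subgroup.normalizer (T : Set G)).relIndex H - 1 := by
  set N := Subgroup.normalizer (T : Set G)
  have h1 : Nat.card (G ⧸ N) = (H ⊓ N).relIndex H := by
    rw [← Nat.card_univ]
    refine card_eq_relIndex (fun h : G => (h : G ⧸ N)) _ (fun a ha b hb => ?_) (fun u => ?_)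
    · rw [QuotientGroup.eq]
      exact ⟨fun h => ⟨H.mul_mem (H.inv_mem ha) hb, h⟩, fun h => h.2⟩
    · refine ⟨fun _ => ?_, fun _ => trivial⟩
      induction u using QuotientGroup.induction_on with
      | H g =>
        obtain ⟨h, hh, τ, hτ, rfl⟩ := S.exists_ht g
        refine ⟨h, hh, QuotientGroup.eq.2 ?_⟩
        rw [inv_mul_cancel_left]
        exact Subgroup.le_normalizer hτ
  letI : MulAction T {x : G ⧸ N // x ≠ ((1 : G) : G ⧸ N)} :=
    { smul := fun τ x => ⟨(τ : G) • x.1, fun hx => x.2 (by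
        have h0 : (τ : G)⁻¹ • ((1 : G) : G ⧸ N) = ((1 : G) : G ⧸ N) := by
          rw [MulAction.Quotient.smul_coe, QuotientGroup.eq]
          simpa using Subgroup.le_normalizer τ.2
        exact (smul_left_cancel_iff (τ : G)⁻¹).2 hx |>.trans h0 |> (inv_smul_smul (τ : G) x.1).symm.trans)⟩
      one_smul := fun x => Subtype.ext (one_smul G x.1)
      mul_smul := fun a b x => Subtype.ext (mul_smul (a : G) (b : G) x.1) }
  have hfree := card_dvd_of_free (M := T) (α := {x : G ⧸ N // x ≠ ((1 : G) : G ⧸ N)}) fun τ x hx => by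
    obtain ⟨x, hx1⟩ := x
    induction x using QuotientGroup.induction_on with
    | H g =>
      by_contra hτ
      have hfix : ((τ : G) * g : G) = ((g : G) : G ⧸ N) := congrArg Subtype.val hx
      have hN : g⁻¹ * (τ : G) * g ∈ N := by
        have := inv_mem (QuotientGroup.eq.1 hfix)
        simpa [mul_assoc] using this
      have hT : g⁻¹ * (τ : G) * g ∈ T := by
        refine S.le_of_le_normalizer (U := (Subgroup.zpowers (g⁻¹ * (τ : G) * g))) ?_
          (Subgroup.zpowers_le.2 hN) (Subgroup.mem_zpowers _)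
        refine (S.twoT.map (MulAut.conj g⁻¹).toMonoidHom).to_le (Subgroup.zpowers_le.2 ?_)
        exact ⟨τ, τ.2, by simp⟩
      obtain ⟨i, hi2, hi1⟩ := S.exists_involution_pow τ.2 (fun h => hτ (Subtype.ext h))
      have hg := S.unique (T.pow_mem τ.2 i) hi1 (g := g) (by
        have h4 := T.pow_mem hT i
        have h5 : (g⁻¹ * (τ : G) * g) ^ i = g⁻¹ * (τ : G) ^ i * g := by
          simpa using (conj_pow (i := i) (a := g⁻¹) (b := (τ : G)))
        rwa [h5] at h4)
      exact hx1 (QuotientGroup.eq.2 (by simpa using inv_mem hg))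
  have h2 : Nat.card {x : G ⧸ N // x ≠ ((1 : G) : G ⧸ N)} = Nat.card (G ⧸ N) - 1 := by
    rw [← Set.coe_ofPred, Nat.card_coe_set_eq]
    rw [← Set.compl_singleton_eq, Set.ncard_compl, Set.ncard_singleton]
  rwa [h2, h1] at hfree

end Setup

end CfsgLib.MetacyclicP.TwoPowerIndex
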