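/-
MetacyclicP: a q-group fixing three cosets is centralised by an involution interchanging two of
them.
-/
import Cfsg.Agent.Lib.MetacyclicP.TwoPowerIndex.TwoTrans

set_option autoImplicit false
set_option linter.style.haveILetI false
set_option linter.unusedSectionVars false

namespace CfsgLib.MetacyclicP.TwoPowerIndex

variable {G : Type*} [Group G]

/-- `Q` is a Sylow `q`-subgroup of the subgroup `B`. -/
def IsSylowOf (q : ℕ) (Q B : Subgroup G) : Prop := Q ≤ B ∧ IsPGroup q Q ∧ ¬ q ∣ Q.relIndex B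

variable [Finite G]

theorem exists_isSylowOf {q : ℕ} [Fact q.Prime] {B Q₀ : Subgroup G} (hle : Q₀ ≤ B)
    (hQ₀ : IsPGroup q Q₀) : ∃ Q, Q₀ ≤ Q ∧ IsSylowOf q Q B := by
  obtain ⟨P, hP⟩ := (hQ₀.of_equiv (Subgroup.subgroupOfEquivOfLe hle).symm).exists_le_sylow
  refine ⟨(P : Subgroup B).map B.subtype, fun x hx => ⟨⟨x, hle hx⟩, hP hx, rfl⟩,
    Subgroup.map_subtype_le _, P.2.map _, ?_⟩
  rw [Subgroup.relIndex, Subgroup.subgroupOf,
    Subgroup.comap_map_eq_self_of_injective B.subtype_injective]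
  exact P.not_dvd_index

theorem IsSylowOf.exists_conj_le {q : ℕ} [Fact q.Prime] {Q B R : Subgroup G}
    (hQ : IsSylowOf q Q B) (hle : R ≤ B) (hR : IsPGroup q R) :
    ∃ b ∈ B, ∀ r ∈ R, b * r * b⁻¹ ∈ Q := by
  let P : Sylow q B :=
    IsPGroup.toSylow (hQ.2.1.of_equiv (Subgroup.subgroupOfEquivOfLe hQ.1).symm) hQ.2.2
  obtain ⟨P', hP'⟩ := (hR.of_equiv (Subgroup.subgroupOfEquivOfLe hle).symm).exists_le_sylow
  obtain ⟨g, hg⟩ := MulAction.exists_smul_eq B P' P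
  refine ⟨g, g.2, fun r hr => ?_⟩
  have : g * ⟨r, hle hr⟩ * g⁻¹ ∈ ((g • P' : Sylow q B) : Subgroup B) :=
    ⟨⟨r, hle hr⟩, hP' hr, by simp⟩
  rw [hg] at this
  exact Subgroup.mem_subgroupOf.1 this

theorem mem_normalizer_of_conj_mem {Q : Subgroup G} {g : G} (h : ∀ x ∈ Q, g * x * g⁻¹ ∈ Q) :
    g ∈ Subgroup.normalizer (Q : Set G) := by
  refine CfsgLib.PGroups.mem_normalizer_of_map_eq (Subgroup.eq_of_le_of_card_ge ?_ ?_)
  · rintro _ ⟨x, hx, rfl⟩
    exact h x hx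
  · rw [Subgroup.card_map_of_injective (MulAut.conj g).injective]

namespace Setup

variable {H T : Subgroup G} (S : Setup H T)

include S

theorem inv_eq_self {t : G} (ht2 : t * t = 1) : t⁻¹ = t := inv_eq_of_mul_eq_one_right ht2

/-- Witt's lemma. -/
theorem witt {t z : G} (ht : t ∈ T) (ht2 : t * t = 1) (ht1 : t ≠ 1) {q : ℕ} [Fact q.Prime]
    {Q : Subgroup G} (hQ : IsSylowOf q Q (stab H t)) (hz : z ∈ T) (hz1 : z ≠ 1)
    (hQz : ∀ x ∈ Q, z⁻¹ * x * z ∈ H) :
    ∃ m ∈ H, m ∈ Subgroup.normalizer (Q : Set G) ∧ z⁻¹ * (m * t) ∈ H := by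
  obtain ⟨h, hh, hk⟩ := S.exists_double_coset ht ht2 ht1 hz hz1
  set R := Q.map (MulAut.conj h⁻¹).toMonoidHom with hR
  have hRle : R ≤ stab H t := by
    rintro _ ⟨x, hx, rfl⟩
    have hxH : x ∈ H := stab_le H t (hQ.1 hx)
    simp only [MulEquiv.coe_toMonoidHom, MulAut.conj_apply, inv_inv]
    refine mem_stab.2 ⟨mul_mem (mul_mem (inv_mem hh) hxH) hh, ?_⟩
    convert mul_mem (mul_mem (inv_mem hk) (hQz x hx)) hk using 1
    group
  obtain ⟨b, hb, hbR⟩ := hQ.exists_conj_le hRle (hQ.2.1.map _)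
  refine ⟨h * b⁻¹, mul_mem hh (inv_mem (stab_le H t hb)), ?_, ?_⟩
  · have hN : b * h⁻¹ ∈ Subgroup.normalizer (Q : Set G) := mem_normalizer_of_conj_mem fun x hx => by
      convert hbR _ ⟨x, hx, rfl⟩ using 1
      simp only [MulEquiv.coe_toMonoidHom, MulAut.conj_apply, inv_inv]
      group
    simpa using inv_mem hN
  · convert mul_mem hk (inv_mem (mem_stab.1 hb).2) using 1
    group

/-- An involution interchanging the base point and `t H` and normalising `Q`. -/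
theorem exists_swapper {t : G} (ht : t ∈ T) (ht2 : t * t = 1) (ht1 : t ≠ 1) {q : ℕ} [Fact q.Prime]
    {Q : Subgroup G} (hQ : IsSylowOf q Q (stab H t)) :
    ∃ s ∈ Subgroup.normalizer (Q : Set G), s * s = 1 ∧ s ≠ 1 ∧ t⁻¹ * s ∈ H := by
  have hti := S.inv_eq_self ht2
  set R := Q.map (MulAut.conj t).toMonoidHom
  have hRle : R ≤ stab H t := by
    rintro _ ⟨x, hx, rfl⟩
    obtain ⟨hx1, hx2⟩ := mem_stab.1 (hQ.1 hx)
    simp only [MulEquiv.coe_toMonoidHom, MulAut.conj_apply]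
    refine mem_stab.2 ⟨?_, ?_⟩
    · rwa [hti] at hx2 ⊢
    · simpa [mul_assoc] using hx1
  obtain ⟨b, hb, hbR⟩ := hQ.exists_conj_le hRle (hQ.2.1.map _)
  obtain ⟨hb1, hb2⟩ := mem_stab.1 hb
  set m := b * t
  have hmN : m ∈ Subgroup.normalizer (Q : Set G) := mem_normalizer_of_conj_mem fun x hx => by
    convert hbR _ ⟨x, hx, rfl⟩ using 1
    simp only [MulEquiv.coe_toMonoidHom, MulAut.conj_apply, m]
    group
  have hm2 : m * m ∈ H := by
    have : m * m = b * (t⁻¹ * b * t) := by rw [hti]; simp only [m, mul_assoc]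
    rw [this]
    exact mul_mem hb1 hb2
  have hm1 : t⁻¹ * m ∈ H := by
    rw [← mul_assoc]
    exact hb2
  obtain ⟨j, k, hk, hn⟩ := Nat.exists_eq_two_pow_mul_odd (orderOf_pos m).ne'
  have hs : t⁻¹ * m ^ k ∈ H := by
    obtain ⟨i, rfl⟩ := hk
    rw [pow_succ', pow_mul, pow_two, ← mul_assoc]
    exact mul_mem hm1 (pow_mem hm2 i)
  refine ⟨m ^ k, pow_mem hmN k, ?_, ?_, hs⟩
  · refine eq_one_of_two_odd (k := j) ?_ S.oddH (pow_card_eq_one_of_mem (K := H) ?_)
    · rw [← pow_add, ← pow_mul, add_mul, mul_comm k, ← hn, pow_add, pow_orderOf_eq_one, one_mul]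
    · rw [← pow_add, ← two_mul, pow_mul, pow_two]
      exact pow_mem hm2 k
  · intro h
    rw [h, mul_one] at hs
    exact ht1 (S.eq_one_of_mem ht (by simpa using inv_mem hs))

/-- A Sylow `q`-subgroup of the two point stabiliser fixing a third point is conjugate, in the
two point stabiliser, into the centraliser of `t`. -/
theorem exists_centralized {t z : G} (ht : t ∈ T) (ht2 : t * t = 1) (ht1 : t ≠ 1) {q : ℕ}
    [Fact q.Prime] {Q : Subgroup G} (hQ : IsSylowOf q Q (stab H t)) (hz : z ∈ T) (hz1 : z ≠ 1)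
    (hzt : z ≠ t) (hQz : ∀ x ∈ Q, z⁻¹ * x * z ∈ H) :
    ∃ h₀ ∈ stab H t, ∀ x ∈ Q, h₀⁻¹ * x * h₀ * t = t * (h₀⁻¹ * x * h₀) := by
  obtain ⟨s, hsN, hs2, hs1, hst⟩ := S.exists_swapper ht ht2 ht1 hQ
  have hsi := S.inv_eq_self hs2
  obtain ⟨h₀, hh₀, hhs⟩ := S.exists_conj_H ht ht2 ht1 hs2 hs1
  refine ⟨h₀, mem_stab.2 ⟨hh₀, ?_⟩, ?_⟩
  · convert mul_mem hst hh₀ using 1
    rw [← hhs]
    group
  suffices hcomm : ∀ x ∈ Q, x * s = s * x by
    intro x hx
    have hc := hcomm x hx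
    rw [← hhs] at hc
    calc h₀⁻¹ * x * h₀ * t = h₀⁻¹ * (x * (h₀ * t * h₀⁻¹)) * h₀ := by group
      _ = t * (h₀⁻¹ * x * h₀) := by rw [hc]; group
  set M := Subgroup.normalizer (Q : Set G) with hMdef
  have hsp : Subgroup.zpowers s ≤ M := Subgroup.zpowers_le.2 hsN
  obtain ⟨P, hP⟩ :=
    ((isPGroup_zpowers hs2).of_equiv (Subgroup.subgroupOfEquivOfLe hsp).symm).exists_le_sylow
  have hsP : (⟨s, hsN⟩ : M) ∈ (P : Subgroup M) :=
    hP (Subgroup.mem_subgroupOf.2 (Subgroup.mem_zpowers s))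
  set U := (P : Subgroup M).map M.subtype with hU
  have hUp : IsPGroup 2 U := P.2.map _
  have hsU : s ∈ U := ⟨_, hsP, rfl⟩
  have hQH : ∀ x ∈ Q, x ∈ H := fun x hx => stab_le H t (hQ.1 hx)
  have hQodd : Odd (Nat.card Q) := S.oddH.of_dvd_nat (Subgroup.card_dvd_of_le hQH)
  by_cases hcyc : IsCyclic U
  · exfalso
    haveI : IsCyclic (P : Subgroup M) := isCyclic_of_surjective
      ((P : Subgroup M).equivMapOfInjective M.subtype M.subtype_injective).symm
      (MulEquiv.surjective _)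
    have hmin : (Nat.card M).minFac = 2 := by
      refine (Nat.minFac_eq_two_iff _).2 ?_
      have ho : orderOf (⟨s, hsN⟩ : M) = 2 :=
        orderOf_eq_prime (Subtype.ext (by simpa [pow_two] using hs2))
          (fun h => hs1 (congrArg Subtype.val h))
      exact ho ▸ orderOf_dvd_natCard _
    have hPc := IsCyclic.normalizer_le_centralizer hmin (P := P) inferInstance
    let π := MonoidHom.transferSylow P hPc
    have hπs : π ⟨s, hsN⟩ ≠ 1 := fun h => hs1 (congrArg Subtype.val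
      (Subgroup.disjoint_def.1 (MonoidHom.ker_transferSylow_disjoint P hPc P P.2)
        (MonoidHom.mem_ker.2 h) hsP))
    have hodd : ∀ x : M, (x : G) ∈ H → π x = 1 := fun x hx => by
      obtain ⟨k, hk⟩ := P.2 (π x)
      refine eq_one_of_two_odd hk S.oddH ?_
      rw [← map_pow, show x ^ Nat.card H = 1 from
        Subtype.ext (by simpa using pow_card_eq_one_of_mem hx), map_one]
    obtain ⟨z', hz', hz's⟩ := S.exists_maps s z
    have hz'1 : z' ≠ 1 := fun h => hzt (by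
      rw [h, inv_one, one_mul] at hz's
      refine (S.eq_of ht hz ?_).symm
      convert mul_mem hst hz's using 1
      rw [mul_assoc, ← mul_assoc s s z, hs2, one_mul])
    have hQz' : ∀ x ∈ Q, z'⁻¹ * x * z' ∈ H := fun x hx => by
      have h1 := hQz _ ((Subgroup.mem_normalizer_iff''.1 hsN x).1 hx)
      convert mul_mem (mul_mem hz's h1) (inv_mem hz's) using 1
      rw [hsi]
      simp only [mul_inv_rev, hsi, mul_assoc]
      simp [← mul_assoc, hs2]
    obtain ⟨m, hm, hmN, hmt⟩ := S.witt ht ht2 ht1 hQ hz hz1 hQz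
    obtain ⟨n, hn, hnN, hnt⟩ := S.witt ht ht2 ht1 hQ hz' hz'1 hQz'
    set o := m⁻¹ * (s * n * s) with ho
    have hoN : o ∈ M := mul_mem (inv_mem hmN) (mul_mem (mul_mem hsN hnN) hsN)
    have hto : t⁻¹ * o ∈ H := by
      have h1 : z⁻¹ * (s * n * s) ∈ H := by
        convert mul_mem (mul_mem (inv_mem hz's) hnt) hst using 1
        rw [mul_inv_rev, mul_inv_rev, inv_inv, hsi]
        simp [mul_assoc]
      convert mul_mem (inv_mem hmt) h1 using 1
      rw [ho]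
      group
    have hsoH : s * o ∈ H := by
      convert mul_mem (inv_mem hst) hto using 1
      rw [mul_inv_rev, inv_inv, hsi]
      group
    have h1 := hodd ⟨s * o, mul_mem hsN hoN⟩ hsoH
    have hoeq : (⟨o, hoN⟩ : M) = ⟨m, hmN⟩⁻¹ * (⟨s, hsN⟩ * ⟨n, hnN⟩ * ⟨s, hsN⟩) := rfl
    have hsq : π ⟨s, hsN⟩ * π ⟨s, hsN⟩ = 1 := by
      rw [← map_mul, show (⟨s, hsN⟩ : M) * ⟨s, hsN⟩ = 1 from Subtype.ext hs2, map_one]
    rw [show (⟨s * o, mul_mem hsN hoN⟩ : M) = ⟨s, hsN⟩ * ⟨o, hoN⟩ from rfl, map_mul, hoeq, map_mul,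
      map_mul, map_mul, map_inv, hodd ⟨m, hmN⟩ hm, hodd ⟨n, hnN⟩ hn, inv_one, one_mul, mul_one,
      hsq, mul_one] at h1
    exact hπs h1
  · obtain ⟨g, -, hgT⟩ := S.exists_conj_le hUp
    haveI : IsMulCommutative U := S.abel.isMulCommutative Nat.prime_two hUp
    have hcop : (Nat.card U).Coprime (Nat.card Q) := by
      obtain ⟨k, hk⟩ := IsPGroup.iff_card.1 hUp
      rw [hk]
      exact (Nat.coprime_two_left.2 hQodd).pow_left k
    have hle : Q ≤ (Subgroup.normalizer (T : Set G)).map (MulAut.conj g).toMonoidHom := by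
      refine CfsgLib.CoprimeAction.le_of_centralizers hcyc
        ((Subgroup.map_subtype_le _ : U ≤ M)) hcop fun a ha ha1 => ?_
      rintro x ⟨-, hxa⟩
      have hxa' : Commute x a := Subgroup.mem_centralizer_singleton_iff.1 hxa
      refine ⟨g⁻¹ * x * g, ?_, by simp [mul_assoc]⟩
      have ha' : g⁻¹ * a * g ≠ 1 := fun hc => ha1 (by
        simpa [mul_assoc] using congrArg (fun y => g * y * g⁻¹) hc)
      obtain ⟨i, -, hi1⟩ := S.exists_involution_pow (hgT a ha) ha'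
      refine S.centralizer_le_normalizer (T.pow_mem (hgT a ha) i) hi1
        (Subgroup.mem_centralizer_singleton_iff.2 ?_)
      have hc : Commute (g⁻¹ * x * g) (g⁻¹ * a * g) := by
        show g⁻¹ * x * g * (g⁻¹ * a * g) = g⁻¹ * a * g * (g⁻¹ * x * g)
        calc g⁻¹ * x * g * (g⁻¹ * a * g) = g⁻¹ * (x * a) * g := by group
          _ = g⁻¹ * a * g * (g⁻¹ * x * g) := by rw [hxa'.eq]; group
      exact (hc.pow_right i).eq
    intro x hx
    have hcQ : x * (s * x⁻¹ * s⁻¹) ∈ Q :=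
      Q.mul_mem hx ((Subgroup.mem_normalizer_iff.1 hsN x⁻¹).1 (Q.inv_mem hx))
    obtain ⟨y, hy, hyx⟩ := hle hx
    simp only [MulEquiv.coe_toMonoidHom, MulAut.conj_apply] at hyx
    have hcT : g⁻¹ * (x * (s * x⁻¹ * s⁻¹)) * g ∈ T := by
      have h1 := T.mul_mem ((Subgroup.mem_normalizer_iff.1 hy _).1 (hgT s hsU))
        (T.inv_mem (hgT s hsU))
      convert h1 using 1
      rw [← hyx]
      group
    obtain ⟨k, hk⟩ := exists_two_pow_of_mem S.twoT hcT
    have hk' : (x * (s * x⁻¹ * s⁻¹)) ^ 2 ^ k = 1 := by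
      have h2 := conj_pow (i := 2 ^ k) (a := g⁻¹) (b := x * (s * x⁻¹ * s⁻¹))
      simp only [inv_inv] at h2
      rw [h2] at hk
      simpa [mul_assoc] using congrArg (fun y => g * y * g⁻¹) hk
    have h1 := eq_one_of_two_odd hk' hQodd (pow_card_eq_one_of_mem hcQ)
    calc x * s = x * (s * x⁻¹ * s⁻¹) * (s * x) := by group
      _ = s * x := by rw [h1, one_mul]

/-- A prime cannot divide both `|H : stab|` and `|stab : C_H(t)|`. -/
theorem false_of_dvd {t : G} (ht : t ∈ T) (ht2 : t * t = 1) (ht1 : t ≠ 1) {q : ℕ} [Fact q.Prime]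
    (h₁ : q ∣ (H ⊓ Subgroup.centralizer {t}).relIndex (stab H t))
    (h₂ : q ∣ Nat.card T - 1) : False := by
  obtain ⟨Q, -, hQ⟩ := exists_isSylowOf (q := q) (B := stab H t) (Q₀ := ⊥) bot_le IsPGroup.of_bot
  obtain ⟨Q₁, hQQ₁, hQ₁⟩ := exists_isSylowOf (q := q) (hQ.1.trans (stab_le H t)) hQ.2.1
  obtain ⟨x, hx, hxB⟩ : ∃ x ∈ Q₁, x ∉ stab H t := by
    by_contra hcon
    push Not at hcon
    refine hQ₁.2.2 (dvd_trans (h₂.trans (S.relIndex_stab ht ht2 ht1).symm.dvd) ?_)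
    exact ⟨Q₁.relIndex (stab H t), by
      rw [mul_comm]; exact (Subgroup.relIndex_mul_relIndex _ _ _ hcon (stab_le H t)).symm⟩
  have hxH : x ∈ H := hQ₁.1 hx
  obtain ⟨z, hz, hzx⟩ := S.exists_maps x t
  have hz1 : z ≠ 1 := fun h => ht1 (S.eq_one_of_mem ht (by
    rw [h, inv_one, one_mul] at hzx
    simpa using mul_mem (inv_mem hxH) hzx))
  have hzt : z ≠ t := fun h => hxB (mem_stab.2 ⟨hxH, by rwa [h, ← mul_assoc] at hzx⟩)
  have hQz : ∀ y ∈ Q, z⁻¹ * y * z ∈ H := fun y hy => by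
    have hc : x * y = y * x :=
      S.abel q (Fact.out) Q₁ hQ₁.2.1 x hx y (hQQ₁ hy)
    convert mul_mem (mul_mem hzx (mem_stab.1 (hQ.1 hy)).2) (inv_mem hzx) using 1
    calc z⁻¹ * y * z = z⁻¹ * (y * x) * x⁻¹ * z := by group
      _ = _ := by rw [← hc]; group
  obtain ⟨h₀, hh₀, hc⟩ := S.exists_centralized ht ht2 ht1 hQ hz hz1 hzt hQz
  set E := H ⊓ Subgroup.centralizer {t} with hE
  have hdvd : Nat.card Q ∣ Nat.card E := by
    rw [← Subgroup.card_map_of_injective (f := (MulAut.conj h₀⁻¹).toMonoidHom)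
      (MulAut.conj h₀⁻¹).injective]
    refine Subgroup.card_dvd_of_le ?_
    rintro _ ⟨y, hy, rfl⟩
    simp only [MulEquiv.coe_toMonoidHom, MulAut.conj_apply, inv_inv]
    exact ⟨H.mul_mem (H.mul_mem (H.inv_mem (stab_le H t hh₀)) (stab_le H t (hQ.1 hy))) (stab_le H t hh₀),
      Subgroup.mem_centralizer_singleton_iff.2 (hc y hy)⟩
  have e1 : Nat.card Q * Q.relIndex (stab H t) = Nat.card (stab H t) := by
    rw [← Subgroup.relIndex_bot_left, Subgroup.relIndex_mul_relIndex _ _ _ bot_le hQ.1,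
      Subgroup.relIndex_bot_left]
  have e2 : Nat.card E * E.relIndex (stab H t) = Nat.card (stab H t) := by
    rw [← Subgroup.relIndex_bot_left,
      Subgroup.relIndex_mul_relIndex _ _ _ bot_le (inf_centralizer_le_stab H t),
      Subgroup.relIndex_bot_left]
  obtain ⟨c, hcE⟩ := hdvd
  refine hQ.2.2 (h₁.trans ⟨c, Nat.eq_of_mul_eq_mul_left (Nat.card_pos (α := Q)) ?_⟩)
  rw [e1, ← e2, hcE]
  ring

end Setup

end CfsgLib.MetacyclicP.TwoPowerIndex
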