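/-
MetacyclicP: the minimal configuration does not exist.
-/
import Cfsg.Agent.Lib.MetacyclicP.TwoPowerIndex.ThreePoints
import Cfsg.Agent.Lib.Cores.Fitting

set_option autoImplicit false
set_option linter.style.haveILetI false
set_option linter.unusedSectionVars false

namespace CfsgLib.MetacyclicP.TwoPowerIndex

variable {G : Type*} [Group G] [Finite G]

theorem fitting_comm (hG : AbelianP G) {x y : G} (hx : x ∈ Cfsg.fittingSubgroup G)
    (hy : y ∈ Cfsg.fittingSubgroup G) : x * y = y * x := by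
  rw [CfsgLib.Cores.fittingSubgroup_eq_iSup_pCore] at hx hy
  set F := ⨆ p : (Nat.card G).primeFactors, Cfsg.pCore (p : ℕ) G
  have hle : ∀ i j : (Nat.card G).primeFactors,
      Cfsg.pCore (i : ℕ) G ≤ Subgroup.centralizer ((Cfsg.pCore (j : ℕ) G : Subgroup G) : Set G) := by
    intro i j a ha
    refine Subgroup.mem_centralizer_iff.2 fun b hb => ?_
    have := Fact.mk (Nat.prime_of_mem_primeFactors i.2)
    have := Fact.mk (Nat.prime_of_mem_primeFactors j.2)
    by_cases hij : i = j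
    · subst hij
      exact hG _ Fact.out _ (CfsgLib.Cores.isPGroup_pCore (i : ℕ) G) b hb a ha
    · exact (CfsgLib.Cores.commute_pCore_of_ne (fun h => hij (Subtype.ext h)) ha hb).symm.eq
  have hF : F ≤ Subgroup.centralizer (F : Set G) := iSup_le fun i =>
    Subgroup.le_centralizer_iff.1 (iSup_le fun j => hle j i)
  exact Subgroup.mem_centralizer_iff.1 (hF hy) x hx

namespace Setup

variable {H T : Subgroup G} (S : Setup H T)

include S

/-- A subgroup not in `D` normal in `H` of prime power order gives a divisor of `|H : D|`. -/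
theorem dvd_relIndex_of_not_le {q : ℕ} [Fact q.Prime] {W D : Subgroup G} (hWH : W ≤ H)
    (hN : H ≤ Subgroup.normalizer (W : Set G)) (hW : IsPGroup q W) (hDH : D ≤ H) (hWD : ¬ W ≤ D) :
    q ∣ D.relIndex H := by
  by_contra hq
  obtain ⟨Q, -, hQ⟩ := exists_isSylowOf (q := q) (B := D) (Q₀ := ⊥) bot_le IsPGroup.of_bot
  have hQH : IsSylowOf q Q H := by
    refine ⟨hQ.1.trans hDH, hQ.2.1, ?_⟩
    rw [← Subgroup.relIndex_mul_relIndex _ _ _ hQ.1 hDH, (Fact.out : q.Prime).dvd_mul, not_or]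
    exact ⟨hQ.2.2, hq⟩
  obtain ⟨b, hb, hbW⟩ := hQH.exists_conj_le hWH hW
  refine hWD fun w hw => hQ.1 ?_
  have h1 := (Subgroup.mem_normalizer_iff''.1 (hN hb) w).1 hw
  convert hbW _ h1 using 1
  group

theorem normal_q_group_data {t : G} (ht : t ∈ T) (ht2 : t * t = 1) (ht1 : t ≠ 1) {q : ℕ}
    [Fact q.Prime] {W : Subgroup G} (hWH : W ≤ H) (hN : H ≤ Subgroup.normalizer (W : Set G))
    (hW : IsPGroup q W) (hW1 : W ≠ ⊥) :
    q ∣ Nat.card T - 1 ∧ q ∣ (H ⊓ Subgroup.normalizer (T : Set G)).relIndex H := by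
  constructor
  · rw [← S.relIndex_stab ht ht2 ht1]
    refine S.dvd_relIndex_of_not_le hWH hN hW (stab_le H t) fun hle => hW1 ?_
    rw [eq_bot_iff, ← S.normalCore_eq_bot S.H_ne_top]
    intro w hw g
    obtain ⟨h', hh', τ, hτ, rfl⟩ := S.exists_ht g
    by_cases hτ1 : τ = 1
    · subst hτ1
      simpa using mul_mem (mul_mem hh' (hWH hw)) (inv_mem hh')
    obtain ⟨h, hh, hk⟩ := S.exists_double_coset ht ht2 ht1 hτ hτ1
    obtain ⟨k, hkH, rfl⟩ : ∃ k ∈ H, τ = h * t * k⁻¹ :=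
      ⟨τ⁻¹ * (h * t), hk, by group⟩
    have h1 := (mem_stab.1 (hle ((Subgroup.mem_normalizer_iff''.1 (hN hkH) w).1 hw))).2
    rw [S.inv_eq_self ht2] at h1
    have h2 : h' * (h * t * k⁻¹) * w * (h' * (h * t * k⁻¹))⁻¹ =
        h' * h * (t * (k⁻¹ * w * k) * t) * (h' * h)⁻¹ := by
      simp only [mul_inv_rev, inv_inv, mul_assoc, S.inv_eq_self ht2]
    rw [h2]
    exact mul_mem (mul_mem (mul_mem hh' hh) h1) (inv_mem (mul_mem hh' hh))
  · refine S.dvd_relIndex_of_not_le hWH hN hW inf_le_left fun hle => hW1 ?_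
    rw [eq_bot_iff, ← S.normalCore_eq_bot (S.normalizer_ne_top S.T_ne_bot S.T_ne_top)]
    intro w hw g
    obtain ⟨τ, hτ, h, hh, rfl⟩ := S.exists_th g
    rw [show τ * h * w * (τ * h)⁻¹ = τ * (h * w * h⁻¹) * τ⁻¹ by group]
    exact mul_mem (mul_mem (Subgroup.le_normalizer hτ)
      (hle ((Subgroup.mem_normalizer_iff.1 (hN hh) w).1 hw)).2) (inv_mem (Subgroup.le_normalizer hτ))

theorem commute_of_conj_mem {t e τ : G} (ht : t ∈ T) (ht1 : t ≠ 1) (hτ : τ ∈ T) (he : e ∈ H)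
    (het : e * t = t * e) (hconj : τ⁻¹ * e * τ ∈ H) : τ * e = e * τ := by
  have h1 : e ∈ Subgroup.normalizer (T : Set G) :=
    S.centralizer_le_normalizer ht ht1 (Subgroup.mem_centralizer_singleton_iff.2 het)
  have h2 : τ⁻¹ * (e * τ * e⁻¹) = 1 := by
    refine S.eq_one_of_mem (mul_mem (inv_mem hτ) ((Subgroup.mem_normalizer_iff.1 h1 τ).1 hτ)) ?_
    rw [show τ⁻¹ * (e * τ * e⁻¹) = τ⁻¹ * e * τ * e⁻¹ by group]
    exact mul_mem hconj (inv_mem he)
  exact eq_mul_inv_iff_mul_eq.1 (inv_mul_eq_one.1 h2)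

/-- In the normaliser of a `q`-subgroup of `C_H(t)` the map induced on `T` is multiplicative. -/
theorem maps_sq {t : G} (ht : t ∈ T) (ht1 : t ≠ 1) {Q₀ : Subgroup G}
    (hQ : Q₀ ≤ H ⊓ Subgroup.centralizer {t}) (hQ1 : Q₀ ≠ ⊥) {h a b : G} (hh : h ∈ H)
    (hhN : h ∈ Subgroup.normalizer (Q₀ : Set G)) (ha : a ∈ T) (haQ : ∀ e ∈ Q₀, a * e = e * a)
    (hb : b ∈ T) (hrel : b⁻¹ * (h * a) ∈ H) : (b * b)⁻¹ * (h * (a * a)) ∈ H := by
  set L := Subgroup.normalizer (Q₀ : Set G) with hLdef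
  have hLne : L ≠ ⊤ := S.normalizer_ne_top hQ1 fun h => S.H_ne_top
    (top_le_iff.1 (h ▸ hQ.trans inf_le_left))
  have memL : ∀ τ ∈ T, (∀ e ∈ Q₀, τ * e = e * τ) → τ ∈ L := fun τ _ hc =>
    mem_normalizer_of_conj_mem fun e he => by rw [hc e he, mul_inv_cancel_right]; exact he
  have hcomp : ∀ g ∈ L, ∀ τ ∈ T, τ⁻¹ * g ∈ H → τ ∈ L := by
    intro g hg τ hτ hk
    refine memL τ hτ fun e he => S.commute_of_conj_mem ht ht1 hτ (hQ he).1
      (Subgroup.mem_centralizer_singleton_iff.1 (hQ he).2) ?_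
    have h1 : g⁻¹ * e * g ∈ H := (hQ ((Subgroup.mem_normalizer_iff''.1 hg e).1 he)).1
    convert mul_mem (mul_mem hk h1) (inv_mem hk) using 1
    group
  have hprod : ∀ g ∈ L, ∃ τ ∈ T ⊓ L, τ⁻¹ * g ∈ H := fun g hg => by
    obtain ⟨τ, hτ, k, hk, rfl⟩ := S.exists_th g
    exact ⟨τ, ⟨hτ, hcomp _ hg τ hτ (by rwa [inv_mul_cancel_left])⟩, by rwa [inv_mul_cancel_left]⟩
  have hsol : Group.IsSolvable L := S.solvable_of_product hLne hprod
  have hUL : T ⊓ L ≤ L := inf_le_right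
  have hidx : ¬ 2 ∣ ((T ⊓ L).subgroupOf L).index := by
    have e1 : Nat.card ↥(T ⊓ L) * (T ⊓ L).relIndex L = Nat.card L := by
      rw [← Subgroup.relIndex_bot_left, Subgroup.relIndex_mul_relIndex _ _ _ bot_le hUL,
        Subgroup.relIndex_bot_left]
    have e2 : Nat.card ↥(H ⊓ L) * H.relIndex L = Nat.card L := by
      rw [← Subgroup.inf_relIndex_right H L, ← Subgroup.relIndex_bot_left,
        Subgroup.relIndex_mul_relIndex _ _ _ bot_le inf_le_right, Subgroup.relIndex_bot_left]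
    rw [S.relIndex_eq hprod, mul_comm, ← e1] at e2
    have e3 : ((T ⊓ L).subgroupOf L).index = Nat.card ↥(H ⊓ L) :=
      (Nat.eq_of_mul_eq_mul_left Nat.card_pos e2).symm
    rw [e3]
    exact (S.oddH.of_dvd_nat (Subgroup.card_dvd_of_le inf_le_left)).not_two_dvd_nat
  let P : Sylow 2 L := IsPGroup.toSylow (p := 2)
    ((S.twoT.to_le inf_le_left).of_equiv (Subgroup.subgroupOfEquivOfLe hUL).symm) hidx
  have memP : ∀ x : L, x ∈ (P : Subgroup L) ↔ (x : G) ∈ T :=
    fun x => ⟨fun h => (Subgroup.mem_subgroupOf.1 h).1,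
      fun h => Subgroup.mem_subgroupOf.2 ⟨h, x.2⟩⟩
  haveI : IsMulCommutative (P : Subgroup L) :=
    (S.abel.subgroup L).isMulCommutative Nat.prime_two P.2
  have hnorm := Cfsg.Agent.S0018.result 2 P inferInstance
  set O := Cfsg.pPrimeCore 2 L
  let π := QuotientGroup.mk' O
  have hn2 : ((P : Subgroup L).map π).Normal := by
    have hOmap : O.map π = ⊥ := (Subgroup.map_eq_bot_iff O).2 (QuotientGroup.ker_mk' O).ge
    have := hnorm.map π (QuotientGroup.mk'_surjective O)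
    rwa [Subgroup.map_sup, hOmap, sup_bot_eq] at this
  have hOodd : Odd (Nat.card O) :=
    Nat.coprime_two_right.1 (CfsgLib.Cores.card_pPrimeCore_coprime 2)
  have key : ∀ u k : L, (u : G) ∈ T → (k : G) ∈ H → π u = π k → u = 1 := by
    intro u k hu hk he
    obtain ⟨j, hj⟩ := exists_two_pow_of_mem S.twoT hu
    have hj' : u ^ 2 ^ j = 1 := Subtype.ext (by simpa using hj)
    have h1 : π u = 1 := eq_one_of_two_odd (by rw [← map_pow, hj', map_one]) S.oddH (by
      rw [he, ← map_pow, show k ^ Nat.card H = 1 from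
        Subtype.ext (by simpa using pow_card_eq_one_of_mem hk), map_one])
    exact eq_one_of_two_odd hj' hOodd
      (pow_card_eq_one_of_mem ((QuotientGroup.eq_one_iff u).1 h1))
  let A : L := ⟨a, memL a ha haQ⟩
  let X : L := ⟨h, hhN⟩
  let Bb : L := ⟨b, hcomp _ (L.mul_mem hhN (memL a ha haQ)) b hb hrel⟩
  obtain ⟨u, hu, huX⟩ := hn2.conj_mem (π A) ⟨A, (memP A).2 ha, rfl⟩ (π X)
  have huT : (u : G) ∈ T := (memP u).1 hu
  have hBu : Bb = u := by
    refine inv_mul_eq_one.1 (key (Bb⁻¹ * u) ((Bb⁻¹ * (X * A)) * X⁻¹)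
      (T.mul_mem (T.inv_mem hb) huT) (H.mul_mem hrel (H.inv_mem hh)) ?_)
    simp only [map_mul, map_inv, huX, mul_assoc]
  have hXA : π X * π A = π Bb * π X := by rw [hBu, huX, inv_mul_cancel_right]
  obtain ⟨c, hc, hcrel⟩ := S.exists_maps h (a * a)
  let C : L := ⟨c, hcomp _ (L.mul_mem hhN (L.mul_mem (memL a ha haQ) (memL a ha haQ))) c hc hcrel⟩
  have hcb : C = Bb * Bb := by
    refine (inv_mul_eq_one.1 (key ((Bb * Bb)⁻¹ * C) (X * (C⁻¹ * (X * (A * A)))⁻¹)
      (T.mul_mem (T.inv_mem (T.mul_mem hb hb)) hc) (H.mul_mem hh (H.inv_mem hcrel)) ?_)).symm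
    have h3 : π X * (π A * π A) = π Bb * π Bb * π X := by
      rw [← mul_assoc, hXA, mul_assoc, hXA, ← mul_assoc]
    simp only [map_mul, map_inv, h3]
    group
  have hcb' : c = b * b := congrArg Subtype.val hcb
  rwa [← hcb']

theorem exists_root {t a : G} (ha : a ∈ T) (ha2 : a * a ≠ 1) (ht : t ∈ T) (ht2 : t * t = 1)
    (ht1 : t ≠ 1) : ∃ r ∈ T, r * r = t := by
  obtain ⟨i, hi2, hi1⟩ := S.exists_involution_pow (T.mul_mem ha ha) ha2
  obtain ⟨h, -, hh⟩ := S.exists_conj_H (T.pow_mem (T.mul_mem ha ha) i) hi2 hi1 ht2 ht1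
  have hN := S.unique ht ht1 (g := h) (by
    rw [← hh]
    convert T.pow_mem (T.mul_mem ha ha) i using 1
    group)
  refine ⟨h * a ^ i * h⁻¹, (Subgroup.mem_normalizer_iff.1 hN _).1 (T.pow_mem ha i), ?_⟩
  rw [← hh, (Commute.refl a).mul_pow]
  group

theorem not_dvd_card_of_le_omega {q : ℕ} [Fact q.Prime] (hq2 : q ≠ 2) {K : Subgroup G}
    (hK : K ≤ S.omega) : ¬ q ∣ Nat.card K := by
  intro hd
  obtain ⟨k, hk⟩ := IsPGroup.iff_card.1 (S.twoT.to_le (fun x hx => (hK hx).1 : K ≤ T))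
  rw [hk] at hd
  exact hq2 ((Nat.prime_dvd_prime_iff_eq Fact.out Nat.prime_two).1
    ((Fact.out : q.Prime).dvd_of_dvd_pow hd))

/-- A `q`-group centralising `t` centralises a square root of `t`. -/
theorem exists_root_fixed {t : G} (ht : t ∈ T) (ht1 : t ≠ 1) (hroot : ∃ r ∈ T, r * r = t) {q : ℕ}
    [Fact q.Prime] (hq2 : q ≠ 2) {Q₀ : Subgroup G} (hQ : Q₀ ≤ H ⊓ Subgroup.centralizer {t})
    (hQp : IsPGroup q Q₀) : ∃ a ∈ T, a * a = t ∧ ∀ e ∈ Q₀, a * e = e * a := by
  obtain ⟨r, hr, hr2⟩ := hroot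
  have hN : ∀ e ∈ Q₀, e ∈ Subgroup.normalizer (T : Set G) := fun e he =>
    S.centralizer_le_normalizer ht ht1 (hQ he).2
  letI : MulAction Q₀ {x : G // x ∈ T ∧ x * x = t} :=
    { smul := fun e x => ⟨(e : G) * x.1 * (e : G)⁻¹,
        (Subgroup.mem_normalizer_iff.1 (hN e e.2) _).1 x.2.1, by
          rw [show (e : G) * x.1 * (e : G)⁻¹ * ((e : G) * x.1 * (e : G)⁻¹) =
            (e : G) * (x.1 * x.1) * (e : G)⁻¹ by group, x.2.2,
            Subgroup.mem_centralizer_singleton_iff.1 (hQ e.2).2, mul_inv_cancel_right]⟩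
      one_smul := fun x => Subtype.ext (by
        show ((1 : Q₀) : G) * x.1 * ((1 : Q₀) : G)⁻¹ = x.1
        simp)
      mul_smul := fun e f x => Subtype.ext (by
        show ((e * f : Q₀) : G) * x.1 * ((e * f : Q₀) : G)⁻¹ =
          (e : G) * ((f : G) * x.1 * (f : G)⁻¹) * (e : G)⁻¹
        push_cast
        group) }
  have hcard : Nat.card {x : G // x ∈ T ∧ x * x = t} = Nat.card S.omega := by
    refine Nat.card_congr ⟨fun x => ⟨r⁻¹ * x.1, T.mul_mem (T.inv_mem hr) x.2.1, ?_⟩,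
      fun x => ⟨r * x.1, T.mul_mem hr x.2.1, ?_⟩, fun x => by simp, fun x => by simp⟩
    · rw [mul_assoc, ← mul_assoc x.1, S.commT x.2.1 (T.inv_mem hr), mul_assoc r⁻¹ x.1, x.2.2,
        ← hr2]
      group
    · rw [mul_assoc, ← mul_assoc x.1, S.commT x.2.1 hr, mul_assoc r x.1, x.2.2, mul_one, hr2]
  obtain ⟨⟨a, ha⟩, hfix⟩ := hQp.nonempty_fixed_point_of_prime_not_dvd_card _
    (hcard ▸ S.not_dvd_card_of_le_omega hq2 le_rfl)
  refine ⟨a, ha.1, ha.2, fun e he => ?_⟩
  have h : e * a * e⁻¹ = a := congrArg Subtype.val (hfix ⟨e, he⟩)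
  exact (mul_inv_eq_iff_eq_mul.1 h).symm

/-- No odd prime divides the order of `C_H(t)`, if `t` is a square. -/
theorem false_of_dvd_centralizer {t : G} (ht : t ∈ T) (ht2 : t * t = 1) (ht1 : t ≠ 1)
    (hroot : ∃ r ∈ T, r * r = t) {q : ℕ} [Fact q.Prime]
    (hq : q ∣ Nat.card ↥(H ⊓ Subgroup.centralizer {t})) : False := by
  set E := H ⊓ Subgroup.centralizer {t} with hE
  have hq2 : q ≠ 2 := fun h => S.oddH.not_two_dvd_nat
    (h ▸ hq.trans (Subgroup.card_dvd_of_le inf_le_left))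
  obtain ⟨QE, -, hQE⟩ := exists_isSylowOf (q := q) (B := E) (Q₀ := ⊥) bot_le IsPGroup.of_bot
  have hQE1 : QE ≠ ⊥ := by
    intro h
    have := hQE.2.2
    rw [h, Subgroup.relIndex_bot_left] at this
    exact this hq
  obtain ⟨Q, hQEQ, hQ⟩ :=
    exists_isSylowOf (q := q) (hQE.1.trans (inf_centralizer_le_stab H t)) hQE.2.1
  obtain ⟨a₀, ha₀, ha₀2, ha₀c⟩ := S.exists_root_fixed ht ht1 hroot hq2 hQE.1 hQE.2.1
  have hQc : ∀ x ∈ Q, ∀ e ∈ QE, x * e = e * x := fun x hx e he =>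
    S.abel q Fact.out Q hQ.2.1 x hx e (hQEQ he)
  have hroot' : ∀ x ∈ Q, ∀ a ∈ T, a * a = t → (∀ e ∈ QE, a * e = e * a) → ∀ b ∈ T,
      b⁻¹ * (x * a) ∈ H → b * b = t ∧ ∀ e ∈ QE, b * e = e * b := by
    intro x hx a ha ha2 hac b hb hrel
    obtain ⟨hxH, hxt⟩ := mem_stab.1 (hQ.1 hx)
    have hxN : x ∈ Subgroup.normalizer (QE : Set G) := mem_normalizer_of_conj_mem fun e he => by
      rw [hQc x hx e he, mul_inv_cancel_right]
      exact he
    refine ⟨?_, fun e he => ?_⟩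
    · have h1 := S.maps_sq ht ht1 hQE.1 hQE1 hxH hxN ha hac hb hrel
      rw [ha2] at h1
      refine S.eq_of (T.mul_mem hb hb) ht ?_
      convert H.mul_mem h1 (H.inv_mem hxt) using 1
      group
    · refine S.commute_of_conj_mem ht ht1 hb (hQE.1 he).1
        (Subgroup.mem_centralizer_singleton_iff.1 (hQE.1 he).2) ?_
      have hxe : Commute (x * a) e :=
        Commute.mul_left (hQc x hx e he) (hac e he)
      convert H.mul_mem (H.mul_mem hrel (hQE.1 he).1) (H.inv_mem hrel) using 1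
      calc b⁻¹ * e * b = b⁻¹ * (e * (x * a)) * (x * a)⁻¹ * b := by group
        _ = _ := by rw [← hxe.eq]; group
  obtain ⟨pr, hpr⟩ := Classical.axiomOfChoice fun g => S.exists_maps g 1
  replace hpr : ∀ g : G, pr g ∈ T ∧ (pr g)⁻¹ * g ∈ H := fun g => by simpa using hpr g
  let R := {x : G // x ∈ T ∧ x * x = t ∧ ∀ e ∈ QE, x * e = e * x}
  letI : MulAction Q R :=
    { smul := fun g x => ⟨pr ((g : G) * x.1), (hpr _).1,
        hroot' g g.2 x.1 x.2.1 x.2.2.1 x.2.2.2 _ (hpr _).1 (hpr _).2⟩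
      one_smul := fun x => Subtype.ext (by
        show pr (((1 : Q) : G) * x.1) = x.1
        rw [OneMemClass.coe_one, one_mul]
        exact S.eq_of (hpr _).1 x.2.1 (hpr _).2)
      mul_smul := fun g f x => Subtype.ext (by
        show pr (((g * f : Q) : G) * x.1) = pr ((g : G) * pr ((f : G) * x.1))
        refine S.eq_of (hpr _).1 (hpr _).1 ?_
        have h3 := H.mul_mem (hpr ((g : G) * pr ((f : G) * x.1))).2 (hpr ((f : G) * x.1)).2
        convert H.mul_mem (hpr (((g * f : Q) : G) * x.1)).2 (H.inv_mem h3) using 1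
        push_cast
        group) }
  have hcard : Nat.card R = Nat.card ↥(S.omega ⊓ Subgroup.centralizer (QE : Set G)) := by
    refine Nat.card_congr ⟨fun x => ⟨a₀⁻¹ * x.1, ⟨⟨T.mul_mem (T.inv_mem ha₀) x.2.1, ?_⟩, ?_⟩⟩,
      fun x => ⟨a₀ * x.1, T.mul_mem ha₀ x.2.1.1, ?_, ?_⟩, fun x => by simp, fun x => by simp⟩
    · rw [mul_assoc, ← mul_assoc x.1, S.commT x.2.1 (T.inv_mem ha₀), mul_assoc a₀⁻¹ x.1, x.2.2.1,
        ← ha₀2]
      group
    · exact Subgroup.mem_centralizer_iff.2 fun e he =>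
        ((Commute.inv_left (ha₀c e he)).mul_left (x.2.2.2 e he)).symm.eq
    · rw [mul_assoc, ← mul_assoc x.1, S.commT x.2.1.1 ha₀, mul_assoc a₀ x.1, x.2.1.2, mul_one,
        ha₀2]
    · intro e he
      exact (Commute.mul_left (ha₀c e he) (Subgroup.mem_centralizer_iff.1 x.2.2 e he).symm).eq
  obtain ⟨⟨a, haT, ha2, _hac⟩, hfix⟩ := hQ.2.1.nonempty_fixed_point_of_prime_not_dvd_card R
    (hcard ▸ S.not_dvd_card_of_le_omega hq2 inf_le_left)
  have hQa : ∀ x ∈ Q, a⁻¹ * x * a ∈ H := fun x hx => by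
    have h : pr (x * a) = a := congrArg Subtype.val (hfix ⟨x, hx⟩)
    have h1 := (hpr (x * a)).2
    rwa [h, ← mul_assoc] at h1
  have ha1 : a ≠ 1 := fun h => ht1 (by rw [← ha2, h, one_mul])
  have hat : a ≠ t := fun h => ht1 (by rw [← ha2, h, ht2])
  obtain ⟨h₀, hh₀, hc⟩ := S.exists_centralized ht ht2 ht1 hQ haT ha1 hat hQa
  set Q' := Q.map (MulAut.conj h₀⁻¹).toMonoidHom with hQ'def
  have hQ'E : Q' ≤ E := by
    rintro _ ⟨y, hy, rfl⟩
    simp only [MulEquiv.coe_toMonoidHom, MulAut.conj_apply, inv_inv]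
    exact ⟨H.mul_mem (H.mul_mem (H.inv_mem (stab_le H t hh₀)) (stab_le H t (hQ.1 hy)))
      (stab_le H t hh₀), Subgroup.mem_centralizer_singleton_iff.2 (hc y hy)⟩
  have hcardQ : Nat.card Q' = Nat.card Q :=
    Subgroup.card_map_of_injective (MulAut.conj h₀⁻¹).injective
  have hQ' : IsSylowOf q Q' (stab H t) := by
    refine ⟨hQ'E.trans (inf_centralizer_le_stab H t), hQ.2.1.map _, ?_⟩
    have e1 : Nat.card Q * Q.relIndex (stab H t) = Nat.card (stab H t) := by
      rw [← Subgroup.relIndex_bot_left, Subgroup.relIndex_mul_relIndex _ _ _ bot_le hQ.1,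
        Subgroup.relIndex_bot_left]
    have e2 : Nat.card Q' * Q'.relIndex (stab H t) = Nat.card (stab H t) := by
      rw [← Subgroup.relIndex_bot_left, Subgroup.relIndex_mul_relIndex _ _ _ bot_le
        (hQ'E.trans (inf_centralizer_le_stab H t)), Subgroup.relIndex_bot_left]
    rw [hcardQ, ← e1] at e2
    rw [Nat.eq_of_mul_eq_mul_left Nat.card_pos e2]
    exact hQ.2.2
  have hQ'1 : Q' ≠ ⊥ := by
    intro h
    rw [h, Subgroup.card_bot] at hcardQ
    exact hQE1 (Subgroup.eq_bot_of_card_eq _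
      (Nat.dvd_one.1 (hcardQ ▸ Subgroup.card_dvd_of_le hQEQ)))
  obtain ⟨b, hb, hb2, hbc⟩ := S.exists_root_fixed ht ht1 hroot hq2 hQ'E hQ'.2.1
  have hb1 : b ≠ 1 := fun h => ht1 (by rw [← hb2, h, one_mul])
  obtain ⟨m, hm, hmN, hmt⟩ := S.witt ht ht2 ht1 hQ' hb hb1 fun x hx => by
    rw [mul_assoc, ← hbc x hx, inv_mul_cancel_left]
    exact (hQ'E hx).1
  have htc : ∀ e ∈ Q', t * e = e * t := fun e he =>
    (Subgroup.mem_centralizer_singleton_iff.1 (hQ'E he).2).symm
  have h1 := S.maps_sq ht ht1 hQ'E hQ'1 hm hmN ht htc hb hmt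
  rw [hb2, ht2, mul_one] at h1
  refine ht1 (S.eq_one_of_mem ht ?_)
  simpa using H.mul_mem hm (H.inv_mem h1)

theorem false : False := by
  obtain ⟨t, ht, ht2, ht1⟩ := S.exists_involution
  set E := H ⊓ Subgroup.centralizer {t} with hE
  set B := stab H t with hB
  have hcount := S.count ht ht2 ht1
  by_cases helem : ∀ a ∈ T, a * a = 1
  · have hom : S.omega = T := le_antisymm (fun x hx => hx.1) (fun x hx => ⟨hx, helem x hx⟩)
    rw [hom, mul_comm] at hcount
    have hn : 0 < Nat.card T - 1 := by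
      have := S.T_ne_bot
      have h1 : Nat.card T ≠ 1 := fun h => this (Subgroup.eq_bot_of_card_eq _ h)
      have h0 : 0 < Nat.card T := Nat.card_pos
      omega
    have hEN := Nat.eq_of_mul_eq_mul_left hn hcount
    haveI := S.solvH
    haveI : Nontrivial H := (Subgroup.nontrivial_iff_ne_bot H).2 S.H_ne_bot
    obtain ⟨q, hq, hq1⟩ : ∃ q : ℕ, q.Prime ∧ Cfsg.pCore q H ≠ ⊥ := by
      by_contra hcon
      push Not at hcon
      exact CfsgLib.Cores.fittingSubgroup_ne_bot (CfsgLib.Cores.fittingSubgroup_eq_bot_iff.2 hcon)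
    have := Fact.mk hq
    obtain ⟨h1, h2⟩ := S.normal_q_group_data ht ht2 ht1 (q := q)
      (W := (Cfsg.pCore q H).map H.subtype) (Subgroup.map_subtype_le _)
      (fun c hc => Subgroup.le_normalizer_map H.subtype
        ⟨⟨c, hc⟩, Subgroup.normalizer_eq_top (H := Cfsg.pCore q H) ▸ Subgroup.mem_top _, rfl⟩)
      ((CfsgLib.Cores.isPGroup_pCore q H).map _)
      (fun h => hq1 ((Subgroup.map_eq_bot_iff_of_injective _ H.subtype_injective).1 h))
    exact S.false_of_dvd ht ht2 ht1 (hEN.symm ▸ h2) h1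
  push Not at helem
  obtain ⟨a, ha, ha2⟩ := helem
  have hroot := S.exists_root ha ha2 ht ht2 ht1
  have hEbot : E = ⊥ := by
    refine Subgroup.eq_bot_of_card_eq _ (by_contra fun h => ?_)
    obtain ⟨q, hq, hqd⟩ := Nat.exists_prime_and_dvd h
    have := Fact.mk hq
    exact S.false_of_dvd_centralizer ht ht2 ht1 hroot hqd
  rw [show H ⊓ Subgroup.centralizer {t} = (⊥ : Subgroup G) from hEbot,
    Subgroup.relIndex_bot_left] at hcount
  -- `B` is abelian
  have hti := S.inv_eq_self ht2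
  have hBt : ∀ x ∈ B, t * x * t ∈ B := fun x hx => by
    obtain ⟨h1, h2⟩ := mem_stab.1 hx
    rw [hti] at h2
    refine mem_stab.2 ⟨h2, ?_⟩
    rw [hti, show t * (t * x * t) * t = t * t * x * (t * t) by group, ht2, one_mul, mul_one]
    exact h1
  let φ : B →* B :=
    { toFun := fun x => ⟨t * x * t, hBt x x.2⟩
      map_one' := Subtype.ext (by simp [ht2])
      map_mul' := fun x y => Subtype.ext (by
        simp only [Subgroup.coe_mul]
        rw [show t * ((x : G) * y) * t = t * x * (1 : G) * y * t by group, ← ht2]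
        group) }
  have hφ : MonoidHom.FixedPointFree φ := fun x hx => by
    have h1 : t * (x : G) * t = x := congrArg Subtype.val hx
    have h2 : (x : G) ∈ E := ⟨stab_le H t x.2, Subgroup.mem_centralizer_singleton_iff.2 (by
      calc (x : G) * t = t * x * (t * t) := by rw [← mul_assoc, h1]
        _ = t * x := by rw [ht2, mul_one])⟩
    rw [hEbot, Subgroup.mem_bot] at h2
    exact Subtype.ext h2
  have hφ2 : Function.Involutive φ := fun x => Subtype.ext (by
    show t * (t * (x : G) * t) * t = x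
    rw [show t * (t * (x : G) * t) * t = t * t * x * (t * t) by group, ht2, one_mul, mul_one])
  haveI hBcomm : IsMulCommutative B := ⟨⟨fun x y => (hφ.commute_all_of_involutive hφ2 x y).eq⟩⟩
  -- arithmetic
  set n := Nat.card T with hn
  set w := Nat.card S.omega with hw
  obtain ⟨c, hc⟩ := S.dvd_relIndex_normalizer_sub_one
  set N := (H ⊓ Subgroup.normalizer (T : Set G)).relIndex H with hNdef
  have hN0 : 0 < N := Nat.pos_of_ne_zero Subgroup.index_ne_zero_of_finite
  have hn0 : 0 < n := Nat.card_pos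
  have hB0 : 0 < Nat.card B := Nat.card_pos
  have hw0 : 0 < w := Nat.card_pos
  rw [← hn] at hc
  have hdvd : n ∣ Nat.card B + (w - 1) := by
    have h1 : Nat.card B * n = Nat.card B + (w - 1) + (w - 1) * (n * c) := by
      have h2 : Nat.card B * n = Nat.card B * (n - 1) + Nat.card B := by
        conv_lhs => rw [show n = n - 1 + 1 by omega]
        ring
      rw [h2, hcount, show N = n * c + 1 by omega]
      ring
    have hd1 : n ∣ (w - 1) * (n * c) := Dvd.intro_left _ (by ring : (w - 1) * c * n = (w - 1) * (n * c))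
    exact (Nat.dvd_add_left hd1).1 (h1 ▸ Dvd.intro_left _ rfl)
  have hwn : 2 * w ≤ n := by
    have hle : S.omega ≤ T := fun x hx => hx.1
    have hne : w ≠ n := fun h => ha2 (by
      have := Subgroup.eq_of_le_of_card_ge hle h.ge
      exact (this.ge ha).2)
    obtain ⟨r, hr⟩ := Subgroup.card_dvd_of_le hle
    rw [← hn, ← hw] at hr
    rcases r with _ | _ | r
    · omega
    · exact absurd (by rw [hr]; ring) hne
    · rw [hr]
      nlinarith
  have hBbig : n ≤ Nat.card B + (w - 1) := Nat.le_of_dvd (by omega) hdvd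
  have hBne : B ≠ ⊥ := by
    intro h
    rw [h, Subgroup.card_bot] at hBbig
    omega
  -- the Fitting subgroup of `H`
  haveI := S.solvH
  set F := (Cfsg.fittingSubgroup H).map H.subtype with hF
  have hFH : F ≤ H := Subgroup.map_subtype_le _
  haveI hFcomm : IsMulCommutative F := ⟨⟨fun x y => by
    obtain ⟨x, x', hx', rfl⟩ := x
    obtain ⟨y, y', hy', rfl⟩ := y
    have hxy := congrArg Subtype.val (fitting_comm (S.abel.subgroup H) hx' hy')
    exact Subtype.ext hxy⟩⟩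
  have hHF : H ≤ Subgroup.normalizer (F : Set G) := fun c hc =>
    Subgroup.le_normalizer_map H.subtype
      ⟨⟨c, hc⟩, Subgroup.normalizer_eq_top (H := Cfsg.fittingSubgroup H) ▸ Subgroup.mem_top _, rfl⟩
  have hBF : B ≤ Subgroup.normalizer (F : Set G) := (stab_le H t).trans hHF
  have hcop : (Nat.card B).Coprime (Nat.card F) := by
    refine Nat.coprime_of_dvd fun r hr hrB hrF => ?_
    have := Fact.mk hr
    let W : Subgroup G :=
      { carrier := {x | x ∈ F ∧ x ^ r = 1}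
        one_mem' := ⟨one_mem _, one_pow r⟩
        mul_mem' := by
          rintro x y ⟨hx, hx'⟩ ⟨hy, hy'⟩
          exact ⟨mul_mem hx hy, by
            rw [Commute.mul_pow (congrArg Subtype.val (mul_comm' (⟨x, hx⟩ : F) ⟨y, hy⟩)), hx', hy',
              one_mul]⟩
        inv_mem' := by
          rintro x ⟨hx, hx'⟩
          exact ⟨inv_mem hx, by rw [inv_pow, hx', inv_one]⟩ }
    have hWp : IsPGroup r W := fun x => ⟨1, Subtype.ext (by simpa using x.2.2)⟩
    have hW1 : W ≠ ⊥ := by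
      obtain ⟨x, hx⟩ := exists_prime_orderOf_dvd_card' r hrF
      intro h
      have hxW : (x : G) ∈ W :=
        ⟨x.2, by rw [← hx, ← SubmonoidClass.coe_pow, pow_orderOf_eq_one, OneMemClass.coe_one]⟩
      rw [h, Subgroup.mem_bot] at hxW
      rw [show x = 1 from Subtype.ext hxW, orderOf_one] at hx
      exact hr.ne_one hx.symm
    have hWN : H ≤ Subgroup.normalizer (W : Set G) := fun g hg =>
      mem_normalizer_of_conj_mem fun x hx =>
        ⟨(Subgroup.mem_normalizer_iff.1 (hHF hg) x).1 hx.1, by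
          rw [conj_pow, hx.2, mul_one, mul_inv_cancel]⟩
    obtain ⟨h1, -⟩ := S.normal_q_group_data ht ht2 ht1 (q := r)
      (fun x (hx : x ∈ W) => hFH hx.1) hWN hWp hW1
    refine S.false_of_dvd ht ht2 ht1 ?_ h1
    rw [show H ⊓ Subgroup.centralizer {t} = (⊥ : Subgroup G) from hEbot,
      Subgroup.relIndex_bot_left]
    exact hrB
  have hinf : B ⊓ F = ⊥ := (Subgroup.disjoint_of_coprime_natCard hcop).eq_bot
  obtain ⟨v, hv, hvB⟩ := exists_centralizer_le hBF hcop
  have hfree : B ⊓ Subgroup.centralizer {v} = ⊥ := by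
    rw [eq_bot_iff, ← hinf]
    rintro x hx
    refine ⟨hx.1, ⟨⟨x, stab_le H t hx.1⟩, ?_, rfl⟩⟩
    refine CfsgLib.Cores.centralizer_fittingSubgroup_le
      (Subgroup.mem_centralizer_iff.2 fun f hf => Subtype.ext ?_)
    exact Subgroup.mem_centralizer_iff.1 (hvB hx) f ⟨f, hf, rfl⟩
  have hBodd : Odd (Nat.card B) := S.oddH.of_dvd_nat (Subgroup.card_dvd_of_le (stab_le H t))
  have hFodd : Odd (Nat.card F) := S.oddH.of_dvd_nat (Subgroup.card_dvd_of_le hFH)
  have h1 := two_mul_card_lt hBF hBodd hFodd hBne hv hfree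
  have h2 : Nat.card F ≤ n - 1 := by
    rw [← S.relIndex_stab ht ht2 ht1, ← Subgroup.relIndex_bot_left F, ← hinf,
      Subgroup.inf_relIndex_right]
    exact Subgroup.relIndex_le_of_le_right hFH Subgroup.index_ne_zero_of_finite
  omega

end Setup

end CfsgLib.MetacyclicP.TwoPowerIndex
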