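/-
MetacyclicP: a finite group with abelian Sylow subgroups having a subgroup of odd order and
2-power index is solvable; a perfect one has no proper subgroup of 2-power index.
-/
import Cfsg.Agent.Lib.MetacyclicP.TwoPowerIndex.Final
import Cfsg.Agent.Lib.ThompsonJ.SylowTools

set_option autoImplicit false
set_option linter.style.haveILetI false

universe u

namespace CfsgLib.MetacyclicP.TwoPowerIndex

theorem dvd_two_pow {d n : ℕ} (h : d ∣ 2 ^ n) : ∃ k, d = 2 ^ k :=
  let ⟨k, _, hk⟩ := (Nat.dvd_prime_pow Nat.prime_two).1 h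
  ⟨k, hk⟩

/-- A finite group with abelian Sylow subgroups with a subgroup of odd order and 2-power index is
solvable. -/
theorem isSolvable_of_odd_subgroup : ∀ (n : ℕ) (G : Type u) [Group G] [Finite G],
    Nat.card G = n → AbelianP G → ∀ H : Subgroup G, Odd (Nat.card H) →
      (∃ m : ℕ, H.index = 2 ^ m) → Group.IsSolvable G := by
  intro n
  induction n using Nat.strong_induction_on with
  | _ n ih =>
    intro G _ _ hn hG H hH hm
    have hsub : ∀ L : Subgroup G, L ≠ ⊤ → (∃ k : ℕ, H.relIndex L = 2 ^ k) →
        Group.IsSolvable L := by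
      intro L hL hk
      have hlt : Nat.card L < n := hn ▸ lt_of_le_of_ne (Subgroup.card_le_card_group L)
        (fun h => hL (Subgroup.eq_top_of_card_eq L h))
      refine ih _ hlt L rfl (hG.subgroup L) (H.subgroupOf L) ?_ hk
      refine hH.of_dvd_nat ?_
      rw [← Subgroup.card_map_of_injective L.subtype_injective, Subgroup.subgroupOf_map_subtype]
      exact Subgroup.card_dvd_of_le inf_le_left
    obtain ⟨m, hm⟩ := hm
    by_cases hsimp : ∀ N : Subgroup G, N.Normal → N = ⊥ ∨ N = ⊤
    · by_contra hns
      obtain ⟨T⟩ := (Sylow.nonempty : Nonempty (Sylow 2 G))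
      have hcopTH : (Nat.card (T : Subgroup G)).Coprime (Nat.card H) := by
        obtain ⟨k, hk⟩ := IsPGroup.iff_card.1 T.2
        rw [hk]
        exact (Nat.coprime_two_left.2 hH).pow_left k
      have hT : Nat.card (T : Subgroup G) = 2 ^ m := by
        obtain ⟨k, hk⟩ := IsPGroup.iff_card.1 T.2
        have h1 := H.card_mul_index
        have h2 := (T : Subgroup G).card_mul_index
        refine Nat.dvd_antisymm ?_ ?_
        · refine Nat.Coprime.dvd_of_dvd_mul_left hcopTH ?_
          rw [← hm, h1, ← h2]
          exact dvd_mul_right _ _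
        · refine Nat.Coprime.dvd_of_dvd_mul_right ?_
            (show 2 ^ m ∣ Nat.card (T : Subgroup G) * (T : Subgroup G).index by
              rw [h2, ← h1, hm]; exact dvd_mul_left _ _)
          exact ((Nat.Prime.coprime_iff_not_dvd Nat.prime_two).2 T.not_dvd_index).pow_left m
      have hcompl : (T : Subgroup G).IsComplement' H :=
        Subgroup.isComplement'_of_coprime (by rw [hT, ← hm, mul_comm, H.card_mul_index]) hcopTH
      exact Setup.false ⟨hsimp, hns, hH, T.2, hcompl, hG, hsub⟩
    · push Not at hsimp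
      obtain ⟨N, hN, hN1, hN2⟩ := hsimp
      haveI := hN
      obtain ⟨k, hk⟩ := dvd_two_pow (hm ▸ CfsgLib.ThompsonJ.relIndex_dvd_index_of_normal H N)
      haveI : Group.IsSolvable N := hsub N hN2 ⟨k, hk⟩
      have hlt : Nat.card (G ⧸ N) < n := by
        have h1 := N.card_mul_index
        rw [← Subgroup.index_eq_card, ← hn, ← h1]
        refine lt_mul_of_one_lt_left (Nat.pos_of_ne_zero Subgroup.index_ne_zero_of_finite) ?_
        exact (Subgroup.one_lt_card_iff_ne_bot N).2 hN1
      obtain ⟨j, hj⟩ := dvd_two_pow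
        (hm ▸ H.index_map_dvd (QuotientGroup.mk'_surjective N))
      haveI : Group.IsSolvable (G ⧸ N) := ih _ hlt (G ⧸ N) rfl (hG.quotient N)
        (H.map (QuotientGroup.mk' N)) (hH.of_dvd_nat (Subgroup.card_map_dvd _ _)) ⟨j, hj⟩
      exact Group.isSolvable_of_ker_le_range N.subtype (QuotientGroup.mk' N)
        (by rw [QuotientGroup.ker_mk', Subgroup.range_subtype])

/-- A perfect finite group with abelian Sylow subgroups has no proper subgroup of 2-power index. -/
theorem eq_top_of_index_two_pow {E : Type u} [Group E] [Finite E] (hE : AbelianP E)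
    (hperf : commutator E = ⊤) {K : Subgroup E} (hK : ∃ m : ℕ, K.index = 2 ^ m) : K = ⊤ := by
  obtain ⟨m, hm⟩ := hK
  obtain ⟨U₀⟩ := (Sylow.nonempty : Nonempty (Sylow 2 K))
  set U := (U₀ : Subgroup K).map K.subtype with hU
  have hUK : U ≤ K := Subgroup.map_subtype_le _
  obtain ⟨T, hT⟩ := (U₀.2.map K.subtype).exists_le_sylow
  set D := K ⊓ (T : Subgroup E) with hD
  have hUD : U ≤ D := le_inf hUK hT
  -- every coset of `K` meets `T`
  have hrel : K.relIndex (T : Subgroup E) = K.index := by
    have e1 : Nat.card D * K.relIndex (T : Subgroup E) = Nat.card (T : Subgroup E) := by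
      rw [← Subgroup.inf_relIndex_right K, ← Subgroup.relIndex_bot_left,
        Subgroup.relIndex_mul_relIndex _ _ _ bot_le inf_le_right, Subgroup.relIndex_bot_left]
    have e2 : Nat.card D = Nat.card (U₀ : Subgroup K) := by
      refine le_antisymm ?_ ?_
      · have hDp : IsPGroup 2 (D.subgroupOf K) :=
          (T.2.to_le (inf_le_right : D ≤ (T : Subgroup E))).of_equiv
            (Subgroup.subgroupOfEquivOfLe (inf_le_left : D ≤ K)).symm
        have hle : (U₀ : Subgroup K) ≤ D.subgroupOf K := fun x hx =>
          Subgroup.mem_subgroupOf.2 (hUD ⟨x, hx, rfl⟩)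
        rw [← U₀.3 hDp hle, Nat.card_congr (Subgroup.subgroupOfEquivOfLe inf_le_left).toEquiv]
      · rw [← Subgroup.card_map_of_injective K.subtype_injective]
        exact Subgroup.card_le_of_le hUD
    have e3 : Nat.card (T : Subgroup E) = Nat.card (U₀ : Subgroup K) * 2 ^ m := by
      rw [T.card_eq_multiplicity, U₀.card_eq_multiplicity, ← K.card_mul_index, hm,
        Nat.factorization_mul Nat.card_pos.ne' (by positivity), Finsupp.add_apply,
        Nat.prime_two.factorization_pow, Finsupp.single_eq_same, pow_add]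
    rw [e2, e3] at e1
    exact (Nat.eq_of_mul_eq_mul_left Nat.card_pos e1).trans hm.symm
  have hcover : ∀ g : E, ∃ τ ∈ (T : Subgroup E), τ⁻¹ * g ∈ K := by
    let f : ((T : Subgroup E) : Type u) ⧸ K.subgroupOf T → E ⧸ K :=
      Quotient.lift (fun τ : (T : Subgroup E) => ((τ : E) : E ⧸ K))
        (fun a b hab => QuotientGroup.eq.2 (by
          simpa [Subgroup.mem_subgroupOf] using QuotientGroup.leftRel_apply.1 hab))
    have hinj : Function.Injective f := by
      intro p q
      induction p using Quotient.inductionOn with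
      | h a =>
        induction q using Quotient.inductionOn with
        | h b =>
          intro hab
          refine Quotient.sound (QuotientGroup.leftRel_apply.2 (Subgroup.mem_subgroupOf.2 ?_))
          simpa using QuotientGroup.eq.1 hab
    have hbij := hinj.bijective_of_nat_card_le (le_of_eq hrel.symm)
    intro g
    obtain ⟨p, hp⟩ := hbij.2 (g : E ⧸ K)
    induction p using Quotient.inductionOn with
    | h τ => exact ⟨τ, τ.2, QuotientGroup.eq.1 hp⟩
  -- the core contains `U`
  have hUN : U ≤ K.normalCore := by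
    intro x hx g
    obtain ⟨τ, hτ, hk⟩ := hcover g⁻¹
    have hc := hE 2 Nat.prime_two T T.2 τ hτ x (hT hx)
    have h1 : g * x * g⁻¹ = (τ⁻¹ * g⁻¹)⁻¹ * x * (τ⁻¹ * g⁻¹) := by
      calc g * x * g⁻¹ = g * (x * τ) * τ⁻¹ * g⁻¹ := by group
        _ = _ := by rw [← hc]; group
    rw [h1]
    exact K.mul_mem (K.mul_mem (K.inv_mem hk) (hUK hx)) hk
  set π := QuotientGroup.mk' K.normalCore
  have hodd : Odd (Nat.card (K.map π)) := by
    have h1 : Nat.card (K.map π) = K.normalCore.relIndex K := by
      have h := Subgroup.relIndex_ker π (K := K)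
      rwa [QuotientGroup.ker_mk', eq_comm] at h
    have h2 : U.relIndex K = (U₀ : Subgroup K).index := by
      rw [Subgroup.relIndex, Subgroup.subgroupOf, hU,
        Subgroup.comap_map_eq_self_of_injective K.subtype_injective]
    rw [h1, ← Nat.not_even_iff_odd, even_iff_two_dvd]
    exact fun hd => U₀.not_dvd_index (h2 ▸ hd.trans (Subgroup.relIndex_dvd_of_le_left K hUN))
  obtain ⟨j, hj⟩ := dvd_two_pow (hm ▸ K.index_map_dvd (QuotientGroup.mk'_surjective K.normalCore))
  haveI : Group.IsSolvable (E ⧸ K.normalCore) := isSolvable_of_odd_subgroup _ _ rfl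
    (hE.quotient K.normalCore) (K.map π) hodd ⟨j, hj⟩
  rw [← top_le_iff]
  refine le_trans ?_ (Subgroup.normalCore_le K)
  intro g _
  by_contra hg
  haveI : Nontrivial (E ⧸ K.normalCore) :=
    ⟨⟨π g, 1, fun h => hg ((QuotientGroup.eq_one_iff g).1 h)⟩⟩
  refine (Group.IsSolvable.commutator_lt_top_of_nontrivial (E ⧸ K.normalCore)).ne ?_
  rw [commutator_def, ← Subgroup.map_top_of_surjective π (QuotientGroup.mk'_surjective _),
    ← Subgroup.map_commutator, ← commutator_def, hperf]

end CfsgLib.MetacyclicP.TwoPowerIndex
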